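import Mathlib
import Cfsg.Agent.Helper22.Balance
import Cfsg.Agent.Helper22.Transitivity
import Cfsg.Agent.Helper21.Coprime
import Cfsg.Agent.Helper35.Coprime
import Cfsg.Agent.Helper35.CoprimeGen
import Cfsg.Agent.Helper1.PPrimeCore

set_option autoImplicit false

/-!
# Local control of `O_{q'}` under coprime action (helper35)

`P` is a `p`-group acting on the normal `p'`-subgroup `H` with `K = [H, P]` solvable, and `z` is
a `q`-element of `C_H(P)`.  Then `O_{q'}(C_H(z))` centralizes `K / O_{q'}(K)`, and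
`(O_{q'}(C_H(z)) ∩ O_{q'}(C_H(P))) · [O_{q'}(C_H(z)), P] ≤ O_{q'}(H)` (Flavell).
-/

namespace Cfsg.Agent.Helper35

open Cfsg
open scoped commutatorElement

section

variable {G : Type*} [Group G] [Finite G]

theorem cl_core_coprime (q : ℕ) (C : Subgroup G) :
    (Nat.card ↥((pPrimeCore q ↥C).map C.subtype)).Coprime q := by
  rw [Subgroup.card_map_of_injective C.subtype_injective]
  exact Cfsg.Agent.Helper1.pPrimeCore_coprime q

omit [Finite G] in
theorem cl_core_conj (q : ℕ) (C : Subgroup G) {c y : G} (hc : c ∈ C)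
    (hy : y ∈ (pPrimeCore q ↥C).map C.subtype) :
    c * y * c⁻¹ ∈ (pPrimeCore q ↥C).map C.subtype := by
  obtain ⟨y', hy', rfl⟩ := hy
  have := (Cfsg.Agent.Helper1.pPrimeCore_normal (G := ↥C) q).conj_mem y' hy' ⟨c, hc⟩
  exact ⟨_, this, rfl⟩

omit [Finite G] in
theorem cl_le_core (q : ℕ) {C D : Subgroup G} (hDC : D ≤ C)
    (hn : ∀ c ∈ C, ∀ d ∈ D, c * d * c⁻¹ ∈ D) (hcop : (Nat.card D).Coprime q) :
    D ≤ (pPrimeCore q ↥C).map C.subtype := by
  have hN : (D.subgroupOf C).Normal := by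
    constructor
    intro d hd c
    exact hn c c.2 d hd
  have hc : (Nat.card ↥(D.subgroupOf C)).Coprime q := by
    rw [card_subgroupOf_of_le hDC]
    exact hcop
  intro d hd
  exact ⟨⟨d, hDC hd⟩, Cfsg.Agent.Helper1.le_pPrimeCore hN hc hd, rfl⟩

theorem cl_core_conj_normalizer (q : ℕ) (C : Subgroup G) {g y : G}
    (hg : g ∈ Subgroup.normalizer (C : Set G)) (hy : y ∈ (pPrimeCore q ↥C).map C.subtype) :
    g * y * g⁻¹ ∈ (pPrimeCore q ↥C).map C.subtype := by
  have hle : ((pPrimeCore q ↥C).map C.subtype).map (MulAut.conj g).toMonoidHom ≤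
      (pPrimeCore q ↥C).map C.subtype := by
    apply cl_le_core
    · rintro _ ⟨y, hy, rfl⟩
      exact (Subgroup.mem_normalizer_iff.mp hg y).mp (Subgroup.map_subtype_le _ hy)
    · rintro c hc _ ⟨y, hy, rfl⟩
      have hc' : g⁻¹ * c * g ∈ C := by
        have := (Subgroup.mem_normalizer_iff.mp (Subgroup.inv_mem _ hg) c).mp hc
        simpa using this
      refine ⟨(g⁻¹ * c * g) * y * (g⁻¹ * c * g)⁻¹, cl_core_conj q C hc' hy, ?_⟩
      show g * ((g⁻¹ * c * g) * y * (g⁻¹ * c * g)⁻¹) * g⁻¹ = c * (g * y * g⁻¹) * c⁻¹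
      group
    · rw [Subgroup.card_map_of_injective (MulAut.conj g).injective]
      exact cl_core_coprime q C
  exact hle ⟨y, hy, rfl⟩

/-- The local lemma: a `q'`-subgroup `Y` centralizing the `q`-element `z` and normalized by
`C(z)` (inside `K⟨d, z⟩`, `K` solvable) lies, elementwise, in a normal `q'`-subgroup of
`K⟨d, z⟩`. -/
theorem cl_local {q : ℕ} [Fact q.Prime] {K Y : Subgroup G} {z d : G}
    (hK : Group.IsSolvable ↥K) (hzK : z ∈ Subgroup.normalizer (K : Set G))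
    (hdK : d ∈ Subgroup.normalizer (K : Set G)) (hz : ∃ k : ℕ, z ^ (q ^ k) = 1)
    (hY : (Nat.card Y).Coprime q) (hYz : ∀ y ∈ Y, y * z = z * y)
    (hYn : ∀ c : G, c * z = z * c → c ∈ K ⊔ Subgroup.zpowers d ⊔ Subgroup.zpowers z →
      ∀ y ∈ Y, c * y * c⁻¹ ∈ Y)
    (hd : d ∈ Y) :
    ∃ O : Subgroup G, d ∈ O ∧ (Nat.card O).Coprime q ∧
      ∀ x ∈ K ⊔ Subgroup.zpowers d ⊔ Subgroup.zpowers z, ∀ o ∈ O, x * o * x⁻¹ ∈ O := by
  have hdz : d * z = z * d := hYz d hd
  -- solvability of `X = K⟨d⟩⟨z⟩`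
  have hsol1 : Group.IsSolvable ↥(K ⊔ Subgroup.zpowers d) := by
    apply Cfsg.Agent.Helper21.isSolvable_sup _ hK
    · exact isSolvable_of_forall_comm (fun a ha b hb => by
        obtain ⟨i, rfl⟩ := Subgroup.mem_zpowers_iff.mp ha
        obtain ⟨j, rfl⟩ := Subgroup.mem_zpowers_iff.mp hb
        exact (Commute.zpow_zpow_self d i j).eq)
    · rw [Subgroup.zpowers_le]
      exact hdK
  have hzN : Subgroup.zpowers z ≤ Subgroup.normalizer ((K ⊔ Subgroup.zpowers d : Subgroup G) : Set G) := by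
    apply le_normalizer_sup
    · rw [Subgroup.zpowers_le]
      exact hzK
    · rw [Subgroup.zpowers_le]
      apply Subgroup.mem_normalizer_fintype
      intro x hx
      obtain ⟨i, rfl⟩ := Subgroup.mem_zpowers_iff.mp hx
      have h1 : z * d ^ i * z⁻¹ = d ^ i := by
        have hc : Commute z d := hdz.symm
        have := (hc.zpow_right i).eq
        rw [this]
        group
      rw [h1]
      exact Subgroup.zpow_mem_zpowers d i
  have hsol : Group.IsSolvable ↥(K ⊔ Subgroup.zpowers d ⊔ Subgroup.zpowers z) := by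
    apply Cfsg.Agent.Helper21.isSolvable_sup hzN hsol1
    exact isSolvable_of_forall_comm (fun a ha b hb => by
      obtain ⟨i, rfl⟩ := Subgroup.mem_zpowers_iff.mp ha
      obtain ⟨j, rfl⟩ := Subgroup.mem_zpowers_iff.mp hb
      exact (Commute.zpow_zpow_self z i j).eq)
  have hRq : IsPGroup q ↥(Subgroup.zpowers z) := by
    obtain ⟨k, hk⟩ := hz
    rintro ⟨x, hx⟩
    obtain ⟨i, rfl⟩ := Subgroup.mem_zpowers_iff.mp hx
    refine ⟨k, Subtype.ext ?_⟩
    show (z ^ i) ^ q ^ k = 1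
    rw [← zpow_natCast, ← zpow_mul, mul_comm, zpow_mul, zpow_natCast, hk, one_zpow]
  have hcen : ∀ y : G, y * z = z * y → y ∈ Subgroup.centralizer ((Subgroup.zpowers z : Subgroup G) : Set G) := by
    intro y hy
    refine Subgroup.mem_centralizer_iff.mpr ?_
    intro x hx
    obtain ⟨i, rfl⟩ := Subgroup.mem_zpowers_iff.mp hx
    have hc : Commute y z := hy
    exact ((hc.zpow_right i).eq).symm
  have key := Cfsg.Agent.Helper22.le_map_pPrimeCore_of_local_solvable q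
    (X := K ⊔ Subgroup.zpowers d ⊔ Subgroup.zpowers z) (R := Subgroup.zpowers z)
    (D := Y ⊓ (K ⊔ Subgroup.zpowers d ⊔ Subgroup.zpowers z)) hsol le_sup_right hRq inf_le_right
    (fun y hy => hcen y (hYz y hy.1))
    (Nat.Coprime.coprime_dvd_left (Subgroup.card_dvd_of_le inf_le_left) hY)
    (by
      intro y hyX hyC x hx
      have hyz : y * z = z * y :=
        (Subgroup.mem_centralizer_iff.mp hyC z (Subgroup.mem_zpowers z)).symm
      refine ⟨hYn y hyz hyX x hx.1, ?_⟩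
      exact Subgroup.mul_mem _ (Subgroup.mul_mem _ hyX hx.2) (Subgroup.inv_mem _ hyX))
  refine ⟨_, key ⟨hd, ?_⟩, cl_core_coprime q _, fun x hx o ho => cl_core_conj q _ hx ho⟩
  exact Subgroup.mem_sup_left (Subgroup.mem_sup_right (Subgroup.mem_zpowers d))

/-- Consequence: `[K, d] ≤ O_{q'}(K)`. -/
theorem cl_local_comm {q : ℕ} [Fact q.Prime] {K Y : Subgroup G} {z d : G}
    (hK : Group.IsSolvable ↥K) (hzK : z ∈ Subgroup.normalizer (K : Set G))
    (hdK : d ∈ Subgroup.normalizer (K : Set G)) (hz : ∃ k : ℕ, z ^ (q ^ k) = 1)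
    (hY : (Nat.card Y).Coprime q) (hYz : ∀ y ∈ Y, y * z = z * y)
    (hYn : ∀ c : G, c * z = z * c → c ∈ K ⊔ Subgroup.zpowers d ⊔ Subgroup.zpowers z →
      ∀ y ∈ Y, c * y * c⁻¹ ∈ Y)
    (hd : d ∈ Y) :
    ∀ k ∈ K, k * d * k⁻¹ * d⁻¹ ∈ (pPrimeCore q ↥K).map K.subtype := by
  obtain ⟨O, hdO, hOq, hOn⟩ := cl_local hK hzK hdK hz hY hYz hYn hd
  have hKX : K ≤ K ⊔ Subgroup.zpowers d ⊔ Subgroup.zpowers z :=
    le_sup_of_le_left le_sup_left
  have hle : O ⊓ K ≤ (pPrimeCore q ↥K).map K.subtype := by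
    apply cl_le_core q inf_le_right
    · intro c hc x hx
      exact ⟨hOn c (hKX hc) x hx.1, K.mul_mem (K.mul_mem hc hx.2) (K.inv_mem hc)⟩
    · exact Nat.Coprime.coprime_dvd_left (Subgroup.card_dvd_of_le inf_le_left) hOq
  intro k hk
  apply hle
  constructor
  · exact O.mul_mem (hOn k (hKX hk) d hdO) (O.inv_mem hdO)
  · have h1 : d * k⁻¹ * d⁻¹ ∈ K := (Subgroup.mem_normalizer_iff.mp hdK k⁻¹).mp (K.inv_mem hk)
    have h2 : k * d * k⁻¹ * d⁻¹ = k * (d * k⁻¹ * d⁻¹) := by group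
    rw [h2]
    exact K.mul_mem hk h1

/-- Consequence: `Y ∩ K ≤ O_{q'}(K)`. -/
theorem cl_local_mem {q : ℕ} [Fact q.Prime] {K Y : Subgroup G} {z d : G}
    (hK : Group.IsSolvable ↥K) (hzK : z ∈ Subgroup.normalizer (K : Set G))
    (hz : ∃ k : ℕ, z ^ (q ^ k) = 1)
    (hY : (Nat.card Y).Coprime q) (hYz : ∀ y ∈ Y, y * z = z * y)
    (hYn : ∀ c : G, c * z = z * c → c ∈ K ⊔ Subgroup.zpowers d ⊔ Subgroup.zpowers z →
      ∀ y ∈ Y, c * y * c⁻¹ ∈ Y)
    (hd : d ∈ Y) (hdK : d ∈ K) : d ∈ (pPrimeCore q ↥K).map K.subtype := by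
  obtain ⟨O, hdO, hOq, hOn⟩ := cl_local hK hzK (Subgroup.le_normalizer hdK) hz hY hYz hYn hd
  have hKX : K ≤ K ⊔ Subgroup.zpowers d ⊔ Subgroup.zpowers z :=
    le_sup_of_le_left le_sup_left
  have hle : O ⊓ K ≤ (pPrimeCore q ↥K).map K.subtype := by
    apply cl_le_core q inf_le_right
    · intro c hc x hx
      exact ⟨hOn c (hKX hc) x hx.1, K.mul_mem (K.mul_mem hc hx.2) (K.inv_mem hc)⟩
    · exact Nat.Coprime.coprime_dvd_left (Subgroup.card_dvd_of_le inf_le_left) hOq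
  exact hle ⟨hdO, hdK⟩

omit [Finite G] in
/-- A normal subgroup normalizes its commutator with any subgroup. -/
theorem cl_normal_le_normalizer_commutator (H P : Subgroup G) [H.Normal] :
    H ≤ Subgroup.normalizer ((⁅H, P⁆ : Subgroup G) : Set G) := by
  apply le_normalizer_of_forall_conj_mem
  intro h' hh' x hx
  have h1 : ⁅H, P⁆ ≤ (⁅H, P⁆ : Subgroup G).comap (MulAut.conj h').toMonoidHom := by
    rw [Subgroup.commutator_le]
    intro h hh y hy
    rw [Subgroup.mem_comap]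
    have h2 : (MulAut.conj h').toMonoidHom ⁅h, y⁆ = ⁅h' * h, y⁆ * ⁅h', y⁆⁻¹ := by
      show h' * ⁅h, y⁆ * h'⁻¹ = ⁅h' * h, y⁆ * ⁅h', y⁆⁻¹
      simp only [commutatorElement_def]
      group
    rw [h2]
    exact Subgroup.mul_mem _ (Subgroup.commutator_mem_commutator (H.mul_mem hh' hh) hy)
      (Subgroup.inv_mem _ (Subgroup.commutator_mem_commutator hh' hy))
  exact h1 hx

/-- Flavell's lemma. -/
theorem cl_main {p q : ℕ} [Fact p.Prime] [Fact q.Prime] (H P : Subgroup G) [hH : H.Normal]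
    (hP : IsPGroup p ↥P) (hcop : (Nat.card H).Coprime p)
    (hsol : Group.IsSolvable ↥(⁅H, P⁆ : Subgroup G)) (z : G) (hzH : z ∈ H)
    (hzP : z ∈ Subgroup.centralizer (P : Set G)) (hz : ∃ k : ℕ, orderOf z = q ^ k) :
    ((pPrimeCore q ↥(H ⊓ Subgroup.centralizer ({z} : Set G))).map
        (H ⊓ Subgroup.centralizer ({z} : Set G)).subtype ⊓
      (pPrimeCore q ↥(H ⊓ Subgroup.centralizer (P : Set G))).map
        (H ⊓ Subgroup.centralizer (P : Set G)).subtype) ⊔
    ⁅(pPrimeCore q ↥(H ⊓ Subgroup.centralizer ({z} : Set G))).map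
        (H ⊓ Subgroup.centralizer ({z} : Set G)).subtype, P⁆ ≤
    (pPrimeCore q ↥H).map H.subtype := by
  have hPH : P ≤ Subgroup.normalizer (H : Set G) := by
    rw [Subgroup.normalizer_eq_top]
    exact le_top
  have hKH : (⁅H, P⁆ : Subgroup G) ≤ H := commutator_le_of_le_normalizer hPH
  have hHK : H ≤ Subgroup.normalizer ((⁅H, P⁆ : Subgroup G) : Set G) :=
    cl_normal_le_normalizer_commutator H P
  have hPK : P ≤ Subgroup.normalizer ((⁅H, P⁆ : Subgroup G) : Set G) :=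
    le_normalizer_commutator hPH
  obtain ⟨K, hKdef⟩ : ∃ K : Subgroup G, K = ⁅H, P⁆ := ⟨_, rfl⟩
  rw [← hKdef] at hsol hKH hHK hPK
  obtain ⟨Y, hYdef⟩ : ∃ Y : Subgroup G, Y = (pPrimeCore q ↥(H ⊓ Subgroup.centralizer ({z} : Set G))).map
      (H ⊓ Subgroup.centralizer ({z} : Set G)).subtype := ⟨_, rfl⟩
  obtain ⟨R, hRdef⟩ : ∃ R : Subgroup G, R = (pPrimeCore q ↥(H ⊓ Subgroup.centralizer (P : Set G))).map
      (H ⊓ Subgroup.centralizer (P : Set G)).subtype := ⟨_, rfl⟩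
  obtain ⟨M, hMdef⟩ : ∃ M : Subgroup G, M = (pPrimeCore q ↥K).map K.subtype := ⟨_, rfl⟩
  rw [← hYdef, ← hRdef]
  -- basic facts on `Y`
  have hYle : Y ≤ H ⊓ Subgroup.centralizer ({z} : Set G) := hYdef ▸ Subgroup.map_subtype_le _
  have hYq : (Nat.card Y).Coprime q := hYdef ▸ cl_core_coprime q _
  have hYz : ∀ y ∈ Y, y * z = z * y := by
    intro y hy
    exact (Subgroup.mem_centralizer_iff.mp (hYle hy).2 z rfl).symm
  have hYn : ∀ c : G, c ∈ H → c * z = z * c → ∀ y ∈ Y, c * y * c⁻¹ ∈ Y := by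
    intro c hcH hcz y hy
    rw [hYdef] at hy ⊢
    refine cl_core_conj q _ ⟨hcH, Subgroup.mem_centralizer_iff.mpr ?_⟩ hy
    intro w hw
    rw [Set.mem_singleton_iff] at hw
    rw [hw]
    exact hcz.symm
  have hYP : ∀ x ∈ P, ∀ y ∈ Y, x * y * x⁻¹ ∈ Y := by
    intro x hx y hy
    rw [hYdef] at hy ⊢
    refine cl_core_conj_normalizer q _ ?_ hy
    apply Subgroup.mem_normalizer_fintype
    rintro w ⟨hwH, hwz⟩
    refine ⟨hH.conj_mem w hwH x, Subgroup.mem_centralizer_iff.mpr ?_⟩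
    intro v hv
    rw [Set.mem_singleton_iff] at hv
    rw [hv]
    have h1 : Commute w z := (Subgroup.mem_centralizer_iff.mp hwz z rfl).symm
    have h2 : Commute x z := Subgroup.mem_centralizer_iff.mp hzP x hx
    exact ((h2.mul_left h1).mul_left h2.inv_left).eq.symm
  -- facts on `R`
  have hRle : R ≤ H ⊓ Subgroup.centralizer (P : Set G) := hRdef ▸ Subgroup.map_subtype_le _
  have hRq : (Nat.card R).Coprime q := hRdef ▸ cl_core_coprime q _
  have hRn : ∀ c ∈ H ⊓ Subgroup.centralizer (P : Set G), ∀ y ∈ R, c * y * c⁻¹ ∈ R := by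
    intro c hc y hy
    rw [hRdef] at hy ⊢
    exact cl_core_conj q _ hc hy
  -- facts on `M`
  have hMK : M ≤ K := hMdef ▸ Subgroup.map_subtype_le _
  have hMq : (Nat.card M).Coprime q := hMdef ▸ cl_core_coprime q _
  have hMn : ∀ h ∈ H, ∀ m ∈ M, h * m * h⁻¹ ∈ M := by
    intro h hh m hm
    rw [hMdef] at hm ⊢
    exact cl_core_conj_normalizer q _ (hHK hh) hm
  have hzq : ∃ k : ℕ, z ^ (q ^ k) = 1 := by
    obtain ⟨k, hk⟩ := hz
    exact ⟨k, by rw [← hk]; exact pow_orderOf_eq_one z⟩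
  have hXH : ∀ y ∈ Y, K ⊔ Subgroup.zpowers y ⊔ Subgroup.zpowers z ≤ H := fun y hy =>
    sup_le (sup_le hKH (Subgroup.zpowers_le.mpr (hYle hy).1)) (Subgroup.zpowers_le.mpr hzH)
  -- `Y` centralizes `K / O_{q'}(K)`
  have hclub : ∀ y ∈ Y, ∀ k ∈ K, k * y * k⁻¹ * y⁻¹ ∈ M := by
    intro y hy k hk
    rw [hMdef]
    refine cl_local_comm hsol (hHK hzH) (hHK (hYle hy).1) hzq hYq hYz ?_ hy k hk
    intro c hcz hcX y' hy'
    exact hYn c (hXH y hy hcX) hcz y' hy'
  have hmem : ∀ y ∈ Y, y ∈ K → y ∈ M := by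
    intro y hy hyK
    rw [hMdef]
    refine cl_local_mem hsol (hHK hzH) hzq hYq hYz ?_ hy hyK
    intro c hcz hcX y' hy'
    exact hYn c (hXH y hy hcX) hcz y' hy'
  have hMO : M ≤ (pPrimeCore q ↥H).map H.subtype :=
    cl_le_core q (hMK.trans hKH) (fun c hc m hm => hMn c hc m hm) hMq
  have hcopPH : (Nat.card P).Coprime (Nat.card H) := by
    obtain ⟨n, hn⟩ := hP.exists_card_eq
    rw [hn]
    exact Nat.Coprime.pow_left n hcop.symm
  have hPsol : Group.IsSolvable ↥P := by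
    have : Group.IsNilpotent ↥P := hP.isNilpotent
    exact inferInstance
  apply sup_le
  · -- the intersection part
    obtain ⟨D', hD'⟩ : ∃ D' : Subgroup G,
        ∀ x : G, x ∈ D' ↔ x ∈ R ∧ ∀ k ∈ K, k * x * k⁻¹ * x⁻¹ ∈ M :=
      ⟨{ carrier := {x : G | x ∈ R ∧ ∀ k ∈ K, k * x * k⁻¹ * x⁻¹ ∈ M}
         mul_mem' := by
           rintro a b ⟨haR, ha⟩ ⟨hbR, hb⟩
           refine ⟨R.mul_mem haR hbR, fun k hk => ?_⟩
           have h1 : k * (a * b) * k⁻¹ * (a * b)⁻¹ =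
               (k * a * k⁻¹ * a⁻¹) * (a * (k * b * k⁻¹ * b⁻¹) * a⁻¹) := by group
           rw [h1]
           exact M.mul_mem (ha k hk) (hMn a (hRle haR).1 _ (hb k hk))
         one_mem' := ⟨R.one_mem, fun k hk => by simp⟩
         inv_mem' := by
           rintro a ⟨haR, ha⟩
           refine ⟨R.inv_mem haR, fun k hk => ?_⟩
           have h1 : k * a⁻¹ * k⁻¹ * a⁻¹⁻¹ = a⁻¹ * (k * a * k⁻¹ * a⁻¹)⁻¹ * a⁻¹⁻¹ := by group
           rw [h1]
           exact hMn a⁻¹ (H.inv_mem (hRle haR).1) _ (M.inv_mem (ha k hk)) }, fun x => Iff.rfl⟩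
    have hD'H : D' ≤ H := fun x hx => (hRle ((hD' x).mp hx).1).1
    have hD'M : D' ≤ Subgroup.normalizer (M : Set G) := by
      intro x hx
      apply Subgroup.mem_normalizer_fintype
      intro m hm
      exact hMn x (hD'H hx) m hm
    have hWq : (Nat.card ↥(D' ⊔ M)).Coprime q := by
      refine Nat.Coprime.coprime_dvd_left
        (Cfsg.Agent.Helper22.card_sup_dvd_of_le_normalizer hD'M) ?_
      exact Nat.Coprime.mul_left (Nat.Coprime.coprime_dvd_left
        (Subgroup.card_dvd_of_le (fun x hx => ((hD' x).mp hx).1)) hRq) hMq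
    have hWH : D' ⊔ M ≤ H := sup_le hD'H (hMK.trans hKH)
    have hWn : ∀ h ∈ H, ∀ w ∈ D' ⊔ M, h * w * h⁻¹ ∈ D' ⊔ M := by
      intro h hh w hw
      have hle : (D' ⊔ M).map (MulAut.conj h).toMonoidHom ≤ D' ⊔ M := by
        rw [Subgroup.map_sup]
        apply sup_le
        · rintro _ ⟨x, hx, rfl⟩
          show h * x * h⁻¹ ∈ D' ⊔ M
          obtain ⟨n, hn, c, hc, rfl⟩ :=
            exists_commutator_mul_fixed hPH hcopPH (Or.inl hPsol) hh
          have hxc : c * x * c⁻¹ ∈ D' := by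
            have hx := (hD' x).mp hx
            refine (hD' _).mpr ⟨hRn c hc x hx.1, fun k hk => ?_⟩
            have hk' : c⁻¹ * k * c ∈ K := by
              have := (Subgroup.mem_normalizer_iff.mp (Subgroup.inv_mem _ (hHK hc.1)) k).mp hk
              simpa using this
            have h1 : k * (c * x * c⁻¹) * k⁻¹ * (c * x * c⁻¹)⁻¹ =
                c * ((c⁻¹ * k * c) * x * (c⁻¹ * k * c)⁻¹ * x⁻¹) * c⁻¹ := by group
            rw [h1]
            exact hMn c hc.1 _ (hx.2 _ hk')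
          have hnK : n ∈ K := hKdef ▸ hn
          have h2 : n * c * x * (n * c)⁻¹ =
              (n * (c * x * c⁻¹) * n⁻¹ * (c * x * c⁻¹)⁻¹) * (c * x * c⁻¹) := by group
          rw [h2]
          exact Subgroup.mul_mem _ (Subgroup.mem_sup_right (((hD' _).mp hxc).2 n hnK))
            (Subgroup.mem_sup_left hxc)
        · rintro _ ⟨m, hm, rfl⟩
          exact Subgroup.mem_sup_right (hMn h hh m hm)
      exact hle ⟨w, hw, rfl⟩
    have hWO := cl_le_core q hWH hWn hWq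
    rintro y ⟨hyY, hyR⟩
    apply hWO
    apply Subgroup.mem_sup_left
    rw [hD']
    exact ⟨hyR, fun k hk => hclub y hyY k hk⟩
  · -- the commutator part
    rw [Subgroup.commutator_le]
    intro y hy x hx
    apply hMO
    apply hmem
    · have h1 : ⁅y, x⁆ = y * (x * y⁻¹ * x⁻¹) := by
        rw [commutatorElement_def]
        group
      rw [h1]
      exact Y.mul_mem hy (hYP x hx y⁻¹ (Y.inv_mem hy))
    · rw [hKdef]
      exact Subgroup.commutator_mem_commutator (hYle hy).1 hx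

end

end Cfsg.Agent.Helper35
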