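import Mathlib
import Cfsg.Prelude.Def_FusionSystem
import Cfsg.Agent.Helper84.FusionBasic

/-!
# Transport of fusion systems along an injective homomorphism of ambient groups (part 1)

`fstMap ι hι X` is the image of the fusion system `X` (over `U ≤ Ω₁`) under an injective
homomorphism `ι : Ω₁ →* Ω₂`, a fusion system over `U.map ι`; `fstComap ι hι Y` is the restriction
of `Y` (over `U' ≤ Ω₂`) to `Ω₁`, a fusion system over `U'.comap ι`.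
-/

set_option autoImplicit false

namespace Cfsg.Agent.Helper35

open Cfsg Cfsg.FusionSystem

variable {Ω₁ : Type*} [Group Ω₁] {Ω₂ : Type*} [Group Ω₂]

/-- The isomorphism `P ≃* P'` induced by an injective `ι` when `P' = P.map ι`. -/
noncomputable def fstEq (ι : Ω₁ →* Ω₂) (hι : Function.Injective ι) (P : Subgroup Ω₁) (P' : Subgroup Ω₂)
    (h : P' = P.map ι) : ↥P ≃* ↥P' :=
  MulEquiv.ofBijective ((ι.comp P.subtype).codRestrict P' (fun x => h ▸ Subgroup.mem_map_of_mem ι x.2))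
    ⟨fun a b hab => Subtype.ext (hι (congrArg Subtype.val hab)), fun y => by
      have hy : (y : Ω₂) ∈ P.map ι := h ▸ y.2
      obtain ⟨x, hx, hxy⟩ := hy
      exact ⟨⟨x, hx⟩, Subtype.ext hxy⟩⟩

theorem fstEq_coe (ι : Ω₁ →* Ω₂) (hι : Function.Injective ι) (P : Subgroup Ω₁) (P' : Subgroup Ω₂)
    (h : P' = P.map ι) (x : ↥P) : ((fstEq ι hι P P' h x : ↥P') : Ω₂) = ι x := rfl

theorem fstEq_symm_coe (ι : Ω₁ →* Ω₂) (hι : Function.Injective ι) (P : Subgroup Ω₁) (P' : Subgroup Ω₂)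
    (h : P' = P.map ι) (y : ↥P') : ι ((fstEq ι hι P P' h).symm y) = y := by
  have h1 := fstEq_coe ι hι P P' h ((fstEq ι hι P P' h).symm y)
  rw [MulEquiv.apply_symm_apply] at h1
  exact h1.symm

theorem fstEq_symm_apply (ι : Ω₁ →* Ω₂) (hι : Function.Injective ι) (P : Subgroup Ω₁) (P' : Subgroup Ω₂)
    (h : P' = P.map ι) (x : ↥P) (hx : ι x ∈ P') : (fstEq ι hι P P' h).symm ⟨ι x, hx⟩ = x := by
  apply (fstEq ι hι P P' h).injective
  rw [MulEquiv.apply_symm_apply]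
  exact Subtype.ext rfl

/-- The push-forward of a homomorphism `φ : P →* Ω₁` to `P' = P.map ι`. -/
noncomputable def fstFwd (ι : Ω₁ →* Ω₂) (hι : Function.Injective ι) (P : Subgroup Ω₁) (P' : Subgroup Ω₂)
    (h : P' = P.map ι) (φ : ↥P →* Ω₁) : ↥P' →* Ω₂ :=
  (ι.comp φ).comp (fstEq ι hι P P' h).symm.toMonoidHom

theorem fstFwd_apply (ι : Ω₁ →* Ω₂) (hι : Function.Injective ι) (P : Subgroup Ω₁) (P' : Subgroup Ω₂)
    (h : P' = P.map ι) (φ : ↥P →* Ω₁) (x : ↥P) (hx : ι x ∈ P') :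
    fstFwd ι hι P P' h φ ⟨ι x, hx⟩ = ι (φ x) := by
  show ι (φ ((fstEq ι hι P P' h).symm ⟨ι x, hx⟩)) = ι (φ x)
  rw [fstEq_symm_apply]

theorem fstFwd_apply' (ι : Ω₁ →* Ω₂) (hι : Function.Injective ι) (P : Subgroup Ω₁) (P' : Subgroup Ω₂)
    (h : P' = P.map ι) (φ : ↥P →* Ω₁) (y : ↥P') (x : ↥P) (hx : ι x = y) :
    fstFwd ι hι P P' h φ y = ι (φ x) := by
  have : y = ⟨ι x, hx ▸ y.2⟩ := Subtype.ext hx.symm
  rw [this, fstFwd_apply]

/-- Two homomorphisms on `P' = P.map ι` agreeing on the elements `ι x` are equal. -/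
theorem fst_hom_ext (ι : Ω₁ →* Ω₂) (P : Subgroup Ω₁) (P' : Subgroup Ω₂) (h : P' = P.map ι)
    {M : Type*} [Monoid M] (f g : ↥P' →* M)
    (hfg : ∀ (x : ↥P) (hx : ι x ∈ P'), f ⟨ι x, hx⟩ = g ⟨ι x, hx⟩) : f = g := by
  ext y
  have hy : (y : Ω₂) ∈ P.map ι := h ▸ y.2
  obtain ⟨x, hx, hxy⟩ := hy
  have : y = ⟨ι x, hxy ▸ y.2⟩ := Subtype.ext hxy.symm
  rw [this]
  exact hfg ⟨x, hx⟩ _

theorem fst_comap_le (ι : Ω₁ →* Ω₂) (hι : Function.Injective ι) (U : Subgroup Ω₁) (P' : Subgroup Ω₂)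
    (h : P' ≤ U.map ι) : P'.comap ι ≤ U := by
  intro x hx
  obtain ⟨u, hu, hux⟩ := h (show ι x ∈ P' from hx)
  rw [← hι hux]; exact hu

theorem fst_eq_map_comap (ι : Ω₁ →* Ω₂) (P' : Subgroup Ω₂) (h : P' ≤ ι.range) :
    P' = (P'.comap ι).map ι := (Subgroup.map_comap_eq_self h).symm

theorem fst_comap_map (ι : Ω₁ →* Ω₂) (hι : Function.Injective ι) (P : Subgroup Ω₁) :
    (P.map ι).comap ι = P := Subgroup.comap_map_eq_self_of_injective hι P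

/-- The image of a fusion system under an injective homomorphism of ambient groups. -/
def fstMap (ι : Ω₁ →* Ω₂) (hι : Function.Injective ι) {U : Subgroup Ω₁} (X : FusionSystem U) :
    FusionSystem (U.map ι) where
  Hom P' := {φ' | P' ≤ ι.range ∧ ∃ φ ∈ X.Hom (P'.comap ι), ∀ x : ↥(P'.comap ι), φ' ⟨ι x, x.2⟩ = ι (φ x)}
  le_of_mem := by
    rintro P' φ' ⟨hP', φ, hφ, hc⟩
    constructor
    · intro y hy
      obtain ⟨x, rfl⟩ := hP' hy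
      exact ⟨x, (X.le_of_mem hφ).1 (show x ∈ P'.comap ι from hy), rfl⟩
    · intro y
      obtain ⟨x, hx⟩ := hP' y.2
      have hxP : x ∈ P'.comap ι := by rw [Subgroup.mem_comap, hx]; exact y.2
      have hy : y = ⟨ι (⟨x, hxP⟩ : ↥(P'.comap ι)), hxP⟩ := Subtype.ext hx.symm
      rw [hy, hc ⟨x, hxP⟩]
      exact ⟨_, (X.le_of_mem hφ).2 _, rfl⟩
  injective_of_mem := by
    rintro P' φ' ⟨hP', φ, hφ, hc⟩ a b hab
    obtain ⟨x, hx⟩ := hP' a.2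
    obtain ⟨z, hz⟩ := hP' b.2
    have hxP : x ∈ P'.comap ι := by rw [Subgroup.mem_comap, hx]; exact a.2
    have hzP : z ∈ P'.comap ι := by rw [Subgroup.mem_comap, hz]; exact b.2
    have ha : a = ⟨ι (⟨x, hxP⟩ : ↥(P'.comap ι)), hxP⟩ := Subtype.ext hx.symm
    have hb : b = ⟨ι (⟨z, hzP⟩ : ↥(P'.comap ι)), hzP⟩ := Subtype.ext hz.symm
    rw [ha, hb, hc ⟨x, hxP⟩, hc ⟨z, hzP⟩] at hab
    have h1 := X.injective_of_mem hφ (hι hab)
    have h2 : x = z := congrArg Subtype.val h1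
    rw [ha, hb]
    exact Subtype.ext (congrArg ι h2)
  conj_mem := by
    intro P' g' hP' hg'
    obtain ⟨g, hg, rfl⟩ := hg'
    refine ⟨hP'.trans (Subgroup.map_le_range ι U), conjHom (P'.comap ι) g,
      X.conj_mem (fst_comap_le ι hι U P' hP') hg, fun x => ?_⟩
    show ι g * ι x * (ι g)⁻¹ = ι (g * x * g⁻¹)
    rw [map_mul, map_mul, map_inv]
  comp_mem := by
    rintro P' Q' φ' ψ' ⟨hP', φ, hφ, hc⟩ ⟨hQ', ψ, hψ, hd⟩ h
    have hφQ : ∀ x : ↥(P'.comap ι), φ x ∈ Q'.comap ι := fun x => by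
      show ι (φ x) ∈ Q'
      rw [← hc x]; exact h _
    refine ⟨hP', ψ.comp (φ.codRestrict _ hφQ), X.comp_mem hφ hψ hφQ, fun x => ?_⟩
    show ψ' ⟨φ' ⟨ι x, x.2⟩, h _⟩ = ι (ψ ⟨φ x, hφQ x⟩)
    have e : (⟨φ' ⟨ι x, x.2⟩, h _⟩ : ↥Q') = ⟨ι (⟨φ x, hφQ x⟩ : ↥(Q'.comap ι)), hφQ x⟩ := Subtype.ext (hc x)
    rw [e]
    exact hd ⟨φ x, hφQ x⟩
  inv_mem := by
    rintro P' φ' ⟨hP', φ, hφ, hc⟩
    obtain ⟨ψ, hψ, hinv⟩ := X.inv_mem hφ
    have hR : φ'.range ≤ ι.range := by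
      rintro _ ⟨y, rfl⟩
      obtain ⟨x, hx⟩ := hP' y.2
      have hxP : x ∈ P'.comap ι := by rw [Subgroup.mem_comap, hx]; exact y.2
      have hy : y = ⟨ι (⟨x, hxP⟩ : ↥(P'.comap ι)), hxP⟩ := Subtype.ext hx.symm
      rw [hy, hc ⟨x, hxP⟩]
      exact ⟨_, rfl⟩
    have hE : (φ'.range).comap ι = φ.range := by
      ext z
      constructor
      · intro hz
        obtain ⟨y, hy⟩ := (show ι z ∈ φ'.range from hz)
        obtain ⟨x, hx⟩ := hP' y.2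
        have hxP : x ∈ P'.comap ι := by rw [Subgroup.mem_comap, hx]; exact y.2
        have hy' : y = ⟨ι (⟨x, hxP⟩ : ↥(P'.comap ι)), hxP⟩ := Subtype.ext hx.symm
        rw [hy', hc ⟨x, hxP⟩] at hy
        exact ⟨⟨x, hxP⟩, hι hy⟩
      · rintro ⟨x, rfl⟩
        show ι (φ x) ∈ φ'.range
        exact ⟨⟨ι x, x.2⟩, hc x⟩
    have hψ₂ : ψ.comp (Subgroup.inclusion hE.le) ∈ X.Hom ((φ'.range).comap ι) :=
      Helper84.hom_restrict X hψ hE.le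
    refine ⟨fstFwd ι hι ((φ'.range).comap ι) φ'.range (fst_eq_map_comap ι _ hR)
      (ψ.comp (Subgroup.inclusion hE.le)), ⟨hR, _, hψ₂, fun x => fstFwd_apply ι hι _ _ _ _ x x.2⟩, ?_⟩
    intro y
    obtain ⟨x, hx⟩ := hP' y.2
    have hxP : x ∈ P'.comap ι := by rw [Subgroup.mem_comap, hx]; exact y.2
    have hy : y = ⟨ι (⟨x, hxP⟩ : ↥(P'.comap ι)), hxP⟩ := Subtype.ext hx.symm
    have hz : φ (⟨x, hxP⟩ : ↥(P'.comap ι)) ∈ (φ'.range).comap ι := by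
      rw [hE]; exact ⟨_, rfl⟩
    have e : φ' y = ι (φ ⟨x, hxP⟩) := by
      rw [hy]; exact hc ⟨x, hxP⟩
    rw [fstFwd_apply' ι hι _ _ _ _ _ ⟨φ ⟨x, hxP⟩, hz⟩ e.symm]
    show ι (ψ ⟨φ ⟨x, hxP⟩, _⟩) = y
    rw [hinv ⟨x, hxP⟩]
    exact hx

theorem fstMap_mem_iff (ι : Ω₁ →* Ω₂) (hι : Function.Injective ι) {U : Subgroup Ω₁} (X : FusionSystem U)
    (P' : Subgroup Ω₂) (φ' : ↥P' →* Ω₂) :
    φ' ∈ (fstMap ι hι X).Hom P' ↔
      P' ≤ ι.range ∧ ∃ φ ∈ X.Hom (P'.comap ι), ∀ x : ↥(P'.comap ι), φ' ⟨ι x, x.2⟩ = ι (φ x) := Iff.rfl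

/-- Forward: the push-forward of a map of `X` is a map of `fstMap X`. -/
theorem fstFwd_mem (ι : Ω₁ →* Ω₂) (hι : Function.Injective ι) {U : Subgroup Ω₁} (X : FusionSystem U)
    (P : Subgroup Ω₁) (P' : Subgroup Ω₂) (h : P' = P.map ι) {φ : ↥P →* Ω₁} (hφ : φ ∈ X.Hom P) :
    fstFwd ι hι P P' h φ ∈ (fstMap ι hι X).Hom P' := by
  have hP' : P' ≤ ι.range := h ▸ Subgroup.map_le_range ι P
  have hE : P'.comap ι = P := by rw [h]; exact fst_comap_map ι hι P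
  refine ⟨hP', φ.comp (Subgroup.inclusion hE.le), Helper84.hom_restrict X hφ hE.le, fun x => ?_⟩
  exact fstFwd_apply ι hι P P' h φ ⟨x, hE ▸ x.2⟩ x.2

/-- Backward: a map of `fstMap X` on `P' = P.map ι` is the push-forward of a map of `X`. -/
theorem fstMap_mem_elim (ι : Ω₁ →* Ω₂) (hι : Function.Injective ι) {U : Subgroup Ω₁} (X : FusionSystem U)
    (P : Subgroup Ω₁) (P' : Subgroup Ω₂) (h : P' = P.map ι) {φ' : ↥P' →* Ω₂}
    (hφ' : φ' ∈ (fstMap ι hι X).Hom P') :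
    ∃ φ ∈ X.Hom P, φ' = fstFwd ι hι P P' h φ := by
  obtain ⟨hP', φ, hφ, hc⟩ := hφ'
  have hE : P = P'.comap ι := by rw [h]; exact (fst_comap_map ι hι P).symm
  refine ⟨φ.comp (Subgroup.inclusion hE.le), Helper84.hom_restrict X hφ hE.le, ?_⟩
  apply fst_hom_ext ι P P' h
  intro x hx
  rw [fstFwd_apply]
  exact hc ⟨x, hE ▸ x.2⟩

/-- Pointwise form of `fstMap_mem_elim`. -/
theorem fstMap_mem_elim' (ι : Ω₁ →* Ω₂) (hι : Function.Injective ι) {U : Subgroup Ω₁} (X : FusionSystem U)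
    (P : Subgroup Ω₁) (P' : Subgroup Ω₂) (h : P' = P.map ι) {φ' : ↥P' →* Ω₂}
    (hφ' : φ' ∈ (fstMap ι hι X).Hom P') :
    ∃ φ ∈ X.Hom P, ∀ (x : ↥P) (hx : ι x ∈ P'), φ' ⟨ι x, hx⟩ = ι (φ x) := by
  obtain ⟨φ, hφ, rfl⟩ := fstMap_mem_elim ι hι X P P' h hφ'
  exact ⟨φ, hφ, fun x hx => fstFwd_apply ι hι P P' h φ x hx⟩

/-- A homomorphism on `P' = P.map ι` that is pointwise the push-forward of a map of `X` is a map of
`fstMap X`. -/
theorem fstMap_mem_of (ι : Ω₁ →* Ω₂) (hι : Function.Injective ι) {U : Subgroup Ω₁} (X : FusionSystem U)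
    (P : Subgroup Ω₁) (P' : Subgroup Ω₂) (h : P' = P.map ι) {φ : ↥P →* Ω₁} (hφ : φ ∈ X.Hom P)
    {φ' : ↥P' →* Ω₂} (hc : ∀ (x : ↥P) (hx : ι x ∈ P'), φ' ⟨ι x, hx⟩ = ι (φ x)) :
    φ' ∈ (fstMap ι hι X).Hom P' := by
  have : φ' = fstFwd ι hι P P' h φ := by
    apply fst_hom_ext ι P P' h
    intro x hx
    rw [fstFwd_apply]; exact hc x hx
  rw [this]
  exact fstFwd_mem ι hι X P P' h hφ

end Cfsg.Agent.Helper35
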