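import Cfsg.Agent.Helper35.FsT1

/-!
# Transport of fusion systems along an injective homomorphism (part 2): restriction, round trips
-/

set_option autoImplicit false

namespace Cfsg.Agent.Helper35

open Cfsg Cfsg.FusionSystem

variable {Ω₁ : Type*} [Group Ω₁] {Ω₂ : Type*} [Group Ω₂]

/-- The restriction of a fusion system along an injective homomorphism of ambient groups. -/
def fstComap (ι : Ω₁ →* Ω₂) (hι : Function.Injective ι) {U' : Subgroup Ω₂} (Y : FusionSystem U') :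
    FusionSystem (U'.comap ι) where
  Hom P := {φ | ∃ φ' ∈ Y.Hom (P.map ι), ∀ x : ↥P, φ' ⟨ι x, Subgroup.mem_map_of_mem ι x.2⟩ = ι (φ x)}
  le_of_mem := by
    rintro P φ ⟨φ', hφ', hc⟩
    constructor
    · intro x hx
      exact (Y.le_of_mem hφ').1 (Subgroup.mem_map_of_mem ι hx)
    · intro x
      show ι (φ x) ∈ U'
      rw [← hc x]
      exact (Y.le_of_mem hφ').2 _
  injective_of_mem := by
    rintro P φ ⟨φ', hφ', hc⟩ a b hab
    have h1 : φ' ⟨ι a, Subgroup.mem_map_of_mem ι a.2⟩ = φ' ⟨ι b, Subgroup.mem_map_of_mem ι b.2⟩ := by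
      rw [hc a, hc b, hab]
    have h2 := Y.injective_of_mem hφ' h1
    exact Subtype.ext (hι (congrArg Subtype.val h2))
  conj_mem := by
    intro P g hP hg
    refine ⟨conjHom (P.map ι) (ι g), Y.conj_mem ?_ hg, fun x => ?_⟩
    · rintro _ ⟨x, hx, rfl⟩
      exact hP hx
    · show ι g * ι x * (ι g)⁻¹ = ι (g * x * g⁻¹)
      rw [map_mul, map_mul, map_inv]
  comp_mem := by
    rintro P Q φ ψ ⟨φ', hφ', hc⟩ ⟨ψ', hψ', hd⟩ h
    have hφQ : ∀ y : ↥(P.map ι), φ' y ∈ Q.map ι := by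
      rintro ⟨_, x, hx, rfl⟩
      rw [hc ⟨x, hx⟩]
      exact Subgroup.mem_map_of_mem ι (h ⟨x, hx⟩)
    refine ⟨ψ'.comp (φ'.codRestrict _ hφQ), Y.comp_mem hφ' hψ' hφQ, fun x => ?_⟩
    show ψ' ⟨φ' ⟨ι x, Subgroup.mem_map_of_mem ι x.2⟩, hφQ _⟩ = ι (ψ ⟨φ x, h x⟩)
    have e : (⟨φ' ⟨ι x, Subgroup.mem_map_of_mem ι x.2⟩, hφQ _⟩ : ↥(Q.map ι)) =
        ⟨ι (⟨φ x, h x⟩ : ↥Q), Subgroup.mem_map_of_mem ι (h x)⟩ := Subtype.ext (hc x)
    rw [e]
    exact hd ⟨φ x, h x⟩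
  inv_mem := by
    rintro P φ ⟨φ', hφ', hc⟩
    have hinj : Function.Injective φ := by
      intro a b hab
      have h1 : φ' ⟨ι a, Subgroup.mem_map_of_mem ι a.2⟩ = φ' ⟨ι b, Subgroup.mem_map_of_mem ι b.2⟩ := by
        rw [hc a, hc b, hab]
      have h2 := Y.injective_of_mem hφ' h1
      exact Subtype.ext (hι (congrArg Subtype.val h2))
    obtain ⟨ψ', hψ', hinv⟩ := Y.inv_mem hφ'
    have hR : φ.range.map ι = φ'.range := by
      ext y
      constructor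
      · rintro ⟨_, ⟨x, rfl⟩, rfl⟩
        exact ⟨⟨ι x, Subgroup.mem_map_of_mem ι x.2⟩, hc x⟩
      · rintro ⟨⟨_, x, hx, rfl⟩, rfl⟩
        exact ⟨φ ⟨x, hx⟩, ⟨_, rfl⟩, (hc ⟨x, hx⟩).symm⟩
    obtain ⟨ψ, hψ⟩ : ∃ ψ : ↥φ.range →* Ω₁, ∀ x : ↥P, ψ ⟨φ x, ⟨x, rfl⟩⟩ = x := by
      refine ⟨P.subtype.comp (MonoidHom.ofInjective hinj).symm.toMonoidHom, fun x => ?_⟩
      show ((MonoidHom.ofInjective hinj).symm ⟨φ x, ⟨x, rfl⟩⟩ : Ω₁) = x
      have : (MonoidHom.ofInjective hinj).symm ⟨φ x, ⟨x, rfl⟩⟩ = x := by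
        rw [MulEquiv.symm_apply_eq]
        exact Subtype.ext (MonoidHom.ofInjective_apply hinj).symm
      rw [this]
    refine ⟨ψ, ⟨ψ'.comp (Subgroup.inclusion hR.le), Helper84.hom_restrict Y hψ' hR.le, ?_⟩, hψ⟩
    rintro ⟨_, x, rfl⟩
    show ψ' ⟨ι (φ x), _⟩ = ι (ψ ⟨φ x, _⟩)
    rw [hψ x]
    have e : (⟨ι (φ x), hR.le (Subgroup.mem_map_of_mem ι ⟨x, rfl⟩)⟩ : ↥φ'.range) =
        ⟨φ' ⟨ι x, Subgroup.mem_map_of_mem ι x.2⟩, ⟨_, rfl⟩⟩ := Subtype.ext (hc x).symm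
    rw [e, hinv]

theorem fstComap_mem_iff (ι : Ω₁ →* Ω₂) (hι : Function.Injective ι) {U' : Subgroup Ω₂} (Y : FusionSystem U')
    (P : Subgroup Ω₁) (φ : ↥P →* Ω₁) :
    φ ∈ (fstComap ι hι Y).Hom P ↔
      ∃ φ' ∈ Y.Hom (P.map ι), ∀ x : ↥P, φ' ⟨ι x, Subgroup.mem_map_of_mem ι x.2⟩ = ι (φ x) := Iff.rfl

/-- Two fusion systems (over possibly different subgroups) with the same maps. -/
def fstSame {Ω : Type*} [Group Ω] {U V : Subgroup Ω} (D : FusionSystem U) (D' : FusionSystem V) : Prop :=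
  ∀ P : Subgroup Ω, D.Hom P = D'.Hom P

theorem fstSame.refl {Ω : Type*} [Group Ω] {U : Subgroup Ω} (D : FusionSystem U) : fstSame D D := fun _ => rfl

theorem fstSame.symm {Ω : Type*} [Group Ω] {U V : Subgroup Ω} {D : FusionSystem U} {D' : FusionSystem V}
    (h : fstSame D D') : fstSame D' D := fun P => (h P).symm

theorem fstSame.trans {Ω : Type*} [Group Ω] {U V W : Subgroup Ω} {D : FusionSystem U} {D' : FusionSystem V}
    {D'' : FusionSystem W} (h : fstSame D D') (h' : fstSame D' D'') : fstSame D D'' :=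
  fun P => (h P).trans (h' P)

theorem fstSame.subgroup_eq {Ω : Type*} [Group Ω] {U V : Subgroup Ω} {D : FusionSystem U}
    {D' : FusionSystem V} (h : fstSame D D') : U = V := by
  apply le_antisymm
  · have h1 : U.subtype ∈ D'.Hom U := h U ▸ Helper84.subtype_mem D le_rfl
    exact (D'.le_of_mem h1).1
  · have h1 : V.subtype ∈ D.Hom V := (h V).symm ▸ Helper84.subtype_mem D' le_rfl
    exact (D.le_of_mem h1).1

/-- Transport of any property along `fstSame`. -/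
theorem fstSame.elim {Ω : Type*} [Group Ω] {motive : ∀ {V : Subgroup Ω}, FusionSystem V → Prop}
    {U V : Subgroup Ω} {D : FusionSystem U} {D' : FusionSystem V} (h : fstSame D D') (hm : motive D) :
    motive D' := by
  obtain rfl := h.subgroup_eq
  have : D = D' := Helper84.fusionSystem_ext h
  subst this
  exact hm

/-- The subgroup over which a fusion system lives is determined by its maps. -/
theorem fst_le_of_subsystem {Ω : Type*} [Group Ω] {T S : Subgroup Ω} {E : FusionSystem T} {F : FusionSystem S}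
    (h : E.IsSubsystemOf F) : T ≤ S :=
  (F.le_of_mem (h T (Helper84.subtype_mem E le_rfl))).1

/-- Round trip 1: restricting the image gives back the system. -/
theorem fstComap_fstMap (ι : Ω₁ →* Ω₂) (hι : Function.Injective ι) {U : Subgroup Ω₁} (X : FusionSystem U) :
    fstSame (fstComap ι hι (fstMap ι hι X)) X := by
  intro P
  ext φ
  constructor
  · rintro ⟨φ', hφ', hc⟩
    obtain ⟨φ₂, hφ₂, hc₂⟩ := fstMap_mem_elim' ι hι X P (P.map ι) rfl hφ'
    refine Helper84.hom_of_eq X hφ₂ (fun x => ?_)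
    apply hι
    rw [← hc x, hc₂ x]
  · intro hφ
    exact ⟨fstFwd ι hι P (P.map ι) rfl φ, fstFwd_mem ι hι X P (P.map ι) rfl hφ,
      fun x => fstFwd_apply ι hι P (P.map ι) rfl φ x _⟩

/-- Round trip 2: the image of the restriction of a system living inside the range is the system. -/
theorem fstMap_fstComap (ι : Ω₁ →* Ω₂) (hι : Function.Injective ι) {U' : Subgroup Ω₂} (Y : FusionSystem U')
    (hU' : U' ≤ ι.range) : fstSame (fstMap ι hι (fstComap ι hι Y)) Y := by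
  intro P'
  ext φ'
  constructor
  · rintro ⟨hP', φ, ⟨φ'', hφ'', hc''⟩, hc⟩
    have hE : P' = (P'.comap ι).map ι := fst_eq_map_comap ι P' hP'
    refine Helper84.hom_of_eq_source Y hφ'' hE (fun y => ?_)
    have hy : (y : Ω₂) ∈ (P'.comap ι).map ι := hE ▸ y.2
    obtain ⟨x, hx, hxy⟩ := hy
    have e1 : y = ⟨ι (⟨x, hx⟩ : ↥(P'.comap ι)), hx⟩ := Subtype.ext hxy.symm
    have e2 : (⟨(y : Ω₂), hE ▸ y.2⟩ : ↥((P'.comap ι).map ι)) =
        ⟨ι (⟨x, hx⟩ : ↥(P'.comap ι)), Subgroup.mem_map_of_mem ι hx⟩ := Subtype.ext hxy.symm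
    rw [e2, hc'' ⟨x, hx⟩, e1, hc ⟨x, hx⟩]
  · intro hφ'
    have hP' : P' ≤ ι.range := (Y.le_of_mem hφ').1.trans hU'
    have hval : ∀ x : ↥(P'.comap ι), φ' ⟨ι x, x.2⟩ ∈ ι.range := fun x => hU' ((Y.le_of_mem hφ').2 _)
    obtain ⟨φ, hφ⟩ : ∃ φ : ↥(P'.comap ι) →* Ω₁, ∀ x : ↥(P'.comap ι), ι (φ x) = φ' ⟨ι x, x.2⟩ := by
      refine ⟨(MonoidHom.ofInjective hι).symm.toMonoidHom.comp
        ((φ'.comp (fstEq ι hι (P'.comap ι) P' (fst_eq_map_comap ι P' hP')).toMonoidHom).codRestrict ι.range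
          (fun x => hval x)), fun x => ?_⟩
      exact MonoidHom.apply_ofInjective_symm hι _
    refine ⟨hP', φ, ?_, fun x => (hφ x).symm⟩
    have hle : (P'.comap ι).map ι ≤ P' := Subgroup.map_comap_le ι P'
    refine ⟨φ'.comp (Subgroup.inclusion hle), Helper84.hom_restrict Y hφ' hle, fun x => ?_⟩
    exact (hφ x).symm

theorem fstMap_same (ι : Ω₁ →* Ω₂) (hι : Function.Injective ι) {U V : Subgroup Ω₁} {X : FusionSystem U}
    {X₂ : FusionSystem V} (h : fstSame X X₂) : fstSame (fstMap ι hι X) (fstMap ι hι X₂) := by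
  intro P'
  ext φ'
  constructor
  · rintro ⟨hP', φ, hφ, hc⟩
    exact ⟨hP', φ, (h _) ▸ hφ, hc⟩
  · rintro ⟨hP', φ, hφ, hc⟩
    exact ⟨hP', φ, (h _).symm ▸ hφ, hc⟩

theorem fstComap_same (ι : Ω₁ →* Ω₂) (hι : Function.Injective ι) {U V : Subgroup Ω₂} {Y : FusionSystem U}
    {Y₂ : FusionSystem V} (h : fstSame Y Y₂) : fstSame (fstComap ι hι Y) (fstComap ι hι Y₂) := by
  intro P
  ext φ
  constructor
  · rintro ⟨φ', hφ', hc⟩
    exact ⟨φ', (h _) ▸ hφ', hc⟩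
  · rintro ⟨φ', hφ', hc⟩
    exact ⟨φ', (h _).symm ▸ hφ', hc⟩

/-- Subsystems are preserved and reflected by `fstMap`. -/
theorem fstMap_subsystem_iff (ι : Ω₁ →* Ω₂) (hι : Function.Injective ι) {T U : Subgroup Ω₁}
    (E : FusionSystem T) (X : FusionSystem U) :
    E.IsSubsystemOf X ↔ (fstMap ι hι E).IsSubsystemOf (fstMap ι hι X) := by
  constructor
  · rintro h P' φ' ⟨hP', φ, hφ, hc⟩
    exact ⟨hP', φ, h _ hφ, hc⟩
  · intro h P φ hφ
    have h1 : φ ∈ (fstComap ι hι (fstMap ι hι E)).Hom P := (fstComap_fstMap ι hι E P).symm ▸ hφ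
    obtain ⟨φ', hφ', hc⟩ := h1
    have h2 : φ ∈ (fstComap ι hι (fstMap ι hι X)).Hom P := ⟨φ', h _ hφ', hc⟩
    exact (fstComap_fstMap ι hι X P) ▸ h2

theorem fstComap_subsystem (ι : Ω₁ →* Ω₂) (hι : Function.Injective ι) {T' U' : Subgroup Ω₂}
    (E' : FusionSystem T') (X' : FusionSystem U') (h : E'.IsSubsystemOf X') :
    (fstComap ι hι E').IsSubsystemOf (fstComap ι hι X') := by
  rintro P φ ⟨φ', hφ', hc⟩
  exact ⟨φ', h _ hφ', hc⟩

end Cfsg.Agent.Helper35
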