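import Cfsg.Agent.Helper35.FsT2
import Cfsg.Agent.S5133

/-!
# Transport of fusion systems (part 3): saturation
-/

set_option autoImplicit false

namespace Cfsg.Agent.Helper35

open Cfsg Cfsg.FusionSystem

variable {Ω₁ : Type*} [Group Ω₁] {Ω₂ : Type*} [Group Ω₂]

/-- `ι` restricted to `U` is a surjective morphism from `X` onto `fstMap X`. -/
theorem fstMap_surjMorph (ι : Ω₁ →* Ω₂) (hι : Function.Injective ι) {U : Subgroup Ω₁} (X : FusionSystem U) :
    X.IsSurjectiveMorphism (fstMap ι hι X) (ι.comp U.subtype) := by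
  refine ⟨⟨fun s => Subgroup.mem_map_of_mem ι s.2, ?_⟩, ?_, ?_⟩
  · intro P φ hφ
    have hP : P ≤ U := (X.le_of_mem hφ).1
    have hIm : imageAlong (ι.comp U.subtype) P = P.map ι := by
      ext y
      constructor
      · rintro ⟨s, hs, rfl⟩
        exact ⟨s, hs, rfl⟩
      · rintro ⟨x, hx, rfl⟩
        exact ⟨⟨x, hP hx⟩, hx, rfl⟩
    refine ⟨fstFwd ι hι P _ hIm φ, fstFwd_mem ι hι X P _ hIm hφ, hP, (X.le_of_mem hφ).2, ?_, ?_⟩
    · intro x
      rw [hIm]
      exact Subgroup.mem_map_of_mem ι x.2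
    · intro x
      exact fstFwd_apply ι hι P _ hIm φ x _
  · ext y
    constructor
    · rintro ⟨s, rfl⟩
      exact ⟨s, s.2, rfl⟩
    · rintro ⟨x, hx, rfl⟩
      exact ⟨⟨x, hx⟩, rfl⟩
  · rintro P' hP'U φ' ⟨hP', φ, hφ, hc⟩
    have hPre : preimageAlong (ι.comp U.subtype) P' = P'.comap ι := by
      ext x
      constructor
      · rintro ⟨s, hs, rfl⟩
        exact hs
      · intro hx
        exact ⟨⟨x, fst_comap_le ι hι U P' hP'U hx⟩, hx, rfl⟩
    have hφ₂ : φ.comp (Subgroup.inclusion hPre.le) ∈ X.Hom (preimageAlong (ι.comp U.subtype) P') :=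
      Helper84.hom_restrict X hφ hPre.le
    refine ⟨_, hφ₂, (X.le_of_mem hφ₂).1, (X.le_of_mem hφ₂).2, ?_, ?_⟩
    · intro x
      exact (hPre ▸ x.2 : (x : Ω₁) ∈ P'.comap ι)
    · intro x
      exact hc ⟨x, hPre ▸ x.2⟩

/-- The inverse of `ι` on `U.map ι`, as a homomorphism into `Ω₁`. -/
noncomputable def fstInv (ι : Ω₁ →* Ω₂) (hι : Function.Injective ι) (U : Subgroup Ω₁) : ↥(U.map ι) →* Ω₁ :=
  U.subtype.comp (fstEq ι hι U (U.map ι) rfl).symm.toMonoidHom

theorem fstInv_mem (ι : Ω₁ →* Ω₂) (hι : Function.Injective ι) (U : Subgroup Ω₁) (y : ↥(U.map ι)) :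
    fstInv ι hι U y ∈ U := ((fstEq ι hι U (U.map ι) rfl).symm y).2

theorem fstInv_spec (ι : Ω₁ →* Ω₂) (hι : Function.Injective ι) (U : Subgroup Ω₁) (y : ↥(U.map ι)) :
    ι (fstInv ι hι U y) = y := fstEq_symm_coe ι hι U (U.map ι) rfl y

theorem fstInv_apply (ι : Ω₁ →* Ω₂) (hι : Function.Injective ι) (U : Subgroup Ω₁) (x : Ω₁) (hx : ι x ∈ U.map ι) :
    fstInv ι hι U ⟨ι x, hx⟩ = x := hι (fstInv_spec ι hι U ⟨ι x, hx⟩)

/-- The inverse of `ι` on `U.map ι` is a surjective morphism from `fstMap X` onto `X`. -/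
theorem fstMap_surjMorph_inv (ι : Ω₁ →* Ω₂) (hι : Function.Injective ι) {U : Subgroup Ω₁} (X : FusionSystem U) :
    (fstMap ι hι X).IsSurjectiveMorphism X (fstInv ι hι U) := by
  refine ⟨⟨fun s => fstInv_mem ι hι U s, ?_⟩, ?_, ?_⟩
  · rintro P' φ' hφ'
    have hP'U : P' ≤ U.map ι := ((fstMap ι hι X).le_of_mem hφ').1
    have hφ'U := ((fstMap ι hι X).le_of_mem hφ').2
    obtain ⟨hP', φ, hφ, hc⟩ := hφ'
    have hIm : imageAlong (fstInv ι hι U) P' = P'.comap ι := by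
      ext x
      constructor
      · rintro ⟨s, hs, rfl⟩
        show ι (fstInv ι hι U s) ∈ P'
        rw [fstInv_spec]
        exact hs
      · intro hx
        have hx' : ι x ∈ U.map ι := hP'U hx
        exact ⟨⟨ι x, hx'⟩, hx, fstInv_apply ι hι U x hx'⟩
    have hφ₂ : φ.comp (Subgroup.inclusion hIm.le) ∈ X.Hom (imageAlong (fstInv ι hι U) P') :=
      Helper84.hom_restrict X hφ hIm.le
    have hmem : ∀ y : ↥P', fstInv ι hι U ⟨y, hP'U y.2⟩ ∈ imageAlong (fstInv ι hι U) P' := by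
      intro y
      rw [hIm]
      show ι (fstInv ι hι U ⟨y, hP'U y.2⟩) ∈ P'
      rw [fstInv_spec]
      exact y.2
    refine ⟨_, hφ₂, hP'U, hφ'U, hmem, ?_⟩
    intro y
    apply hι
    rw [fstInv_spec]
    have hyc : fstInv ι hι U ⟨y, hP'U y.2⟩ ∈ P'.comap ι := hIm ▸ hmem y
    show ι (φ ⟨fstInv ι hι U ⟨y, hP'U y.2⟩, hyc⟩) = φ' y
    rw [← hc ⟨fstInv ι hι U ⟨y, hP'U y.2⟩, hyc⟩]
    congr 1
    exact Subtype.ext (fstInv_spec ι hι U ⟨y, hP'U y.2⟩)
  · ext x
    constructor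
    · rintro ⟨s, rfl⟩
      exact fstInv_mem ι hι U s
    · intro hx
      exact ⟨⟨ι x, Subgroup.mem_map_of_mem ι hx⟩, fstInv_apply ι hι U x _⟩
  · intro P hPU φ hφ
    have hPre : preimageAlong (fstInv ι hι U) P = P.map ι := by
      ext y
      constructor
      · rintro ⟨s, hs, rfl⟩
        exact ⟨fstInv ι hι U s, hs, fstInv_spec ι hι U s⟩
      · rintro ⟨x, hx, rfl⟩
        have hx' : ι x ∈ U.map ι := Subgroup.mem_map_of_mem ι (hPU hx)
        refine ⟨⟨ι x, hx'⟩, ?_, rfl⟩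
        show fstInv ι hι U ⟨ι x, hx'⟩ ∈ P
        rw [fstInv_apply]
        exact hx
    have hφ' := fstFwd_mem ι hι X P _ hPre hφ
    have hPreU : preimageAlong (fstInv ι hι U) P ≤ U.map ι := ((fstMap ι hι X).le_of_mem hφ').1
    have hmem : ∀ y : ↥(preimageAlong (fstInv ι hι U) P), fstInv ι hι U ⟨y, hPreU y.2⟩ ∈ P := by
      intro y
      have hy : (y : Ω₂) ∈ P.map ι := hPre ▸ y.2
      obtain ⟨x, hx, hxy⟩ := hy
      have : fstInv ι hι U ⟨y, hPreU y.2⟩ = x := by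
        apply hι
        rw [fstInv_spec]
        exact hxy.symm
      rw [this]
      exact hx
    refine ⟨_, hφ', hPreU, ((fstMap ι hι X).le_of_mem hφ').2, hmem, ?_⟩
    intro y
    apply hι
    rw [fstInv_spec]
    exact (fstFwd_apply' ι hι P _ hPre φ y ⟨_, hmem y⟩ (fstInv_spec ι hι U ⟨y, hPreU y.2⟩)).symm

/-- Saturation is preserved and reflected by `fstMap`. -/
theorem fstMap_saturated_iff (ι : Ω₁ →* Ω₂) (hι : Function.Injective ι) {U : Subgroup Ω₁} [Finite U]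
    (p : ℕ) [Fact p.Prime] (hU : IsPGroup p U) (X : FusionSystem U) :
    X.IsSaturated p ↔ (fstMap ι hι X).IsSaturated p := by
  constructor
  · intro hX
    exact Cfsg.Agent.S5133.result p hU X hX (fstMap ι hι X) (ι.comp U.subtype) (fstMap_surjMorph ι hι X)
  · intro hX
    haveI : Finite ↥(U.map ι) := Finite.of_equiv _ (fstEq ι hι U (U.map ι) rfl).toEquiv
    exact Cfsg.Agent.S5133.result p (hU.map ι) (fstMap ι hι X) hX X (fstInv ι hι U)
      (fstMap_surjMorph_inv ι hι X)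

end Cfsg.Agent.Helper35
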