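import Cfsg.Agent.Helper35.FsT3

/-!
# Transport of fusion systems (part 4): automorphism groups, strongly closed subgroups, invariant subsystems
-/

set_option autoImplicit false

namespace Cfsg.Agent.Helper35

open Cfsg Cfsg.FusionSystem

variable {Ω₁ : Type*} [Group Ω₁] {Ω₂ : Type*} [Group Ω₂]

/-- Transport of automorphisms of `P` to automorphisms of `P' = P.map ι`. -/
noncomputable def fstAut (ι : Ω₁ →* Ω₂) (hι : Function.Injective ι) (P : Subgroup Ω₁) (P' : Subgroup Ω₂)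
    (h : P' = P.map ι) : MulAut ↥P ≃* MulAut ↥P' :=
  MulAut.congr (fstEq ι hι P P' h)

theorem fstAut_apply (ι : Ω₁ →* Ω₂) (hι : Function.Injective ι) (P : Subgroup Ω₁) (P' : Subgroup Ω₂)
    (h : P' = P.map ι) (α : MulAut ↥P) (x : ↥P) (hx : ι x ∈ P') :
    ((fstAut ι hι P P' h α ⟨ι x, hx⟩ : ↥P') : Ω₂) = ι (α x) := by
  show ((fstEq ι hι P P' h (α ((fstEq ι hι P P' h).symm ⟨ι x, hx⟩)) : ↥P') : Ω₂) = ι (α x)
  rw [fstEq_symm_apply]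
  rfl

theorem fstAut_apply' (ι : Ω₁ →* Ω₂) (hι : Function.Injective ι) (P : Subgroup Ω₁) (P' : Subgroup Ω₂)
    (h : P' = P.map ι) (α : MulAut ↥P) (y : ↥P') (x : ↥P) (hx : ι x = y) :
    ((fstAut ι hι P P' h α y : ↥P') : Ω₂) = ι (α x) := by
  have : y = ⟨ι x, hx ▸ y.2⟩ := Subtype.ext hx.symm
  rw [this, fstAut_apply]

theorem fstAut_mem_iff (ι : Ω₁ →* Ω₂) (hι : Function.Injective ι) {U : Subgroup Ω₁} (X : FusionSystem U)
    (P : Subgroup Ω₁) (P' : Subgroup Ω₂) (h : P' = P.map ι) (hP : P ≤ U) (α : MulAut ↥P) :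
    α ∈ X.autGroup P ↔ fstAut ι hι P P' h α ∈ (fstMap ι hι X).autGroup P' := by
  have hP' : P' ≤ U.map ι := h ▸ Subgroup.map_mono hP
  rw [Helper85.mem_autGroup_iff X hP, Helper85.mem_autGroup_iff (fstMap ι hι X) hP']
  constructor
  · intro hα
    exact fstMap_mem_of ι hι X P P' h hα (fun x hx => fstAut_apply ι hι P P' h α x hx)
  · intro hα'
    obtain ⟨φ, hφ, hc⟩ := fstMap_mem_elim' ι hι X P P' h hα'
    refine Helper84.hom_of_eq X hφ (fun x => ?_)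
    apply hι
    have hx : ι x ∈ P' := h ▸ Subgroup.mem_map_of_mem ι x.2
    rw [← hc x hx]
    exact (fstAut_apply ι hι P P' h α x hx).symm

/-- Strongly closed subgroups are preserved and reflected. -/
theorem fstMap_stronglyClosed_iff (ι : Ω₁ →* Ω₂) (hι : Function.Injective ι) {U : Subgroup Ω₁}
    (X : FusionSystem U) (T : Subgroup Ω₁) :
    X.StronglyClosed T ↔ (fstMap ι hι X).StronglyClosed (T.map ι) := by
  constructor
  · rintro ⟨hT, h⟩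
    refine ⟨Subgroup.map_mono hT, ?_⟩
    rintro R' hR' φ' ⟨hR'r, φ, hφ, hc⟩ y
    obtain ⟨x, hx⟩ := hR'r y.2
    have hxR : x ∈ R'.comap ι := by rw [Subgroup.mem_comap, hx]; exact y.2
    have hy : y = ⟨ι (⟨x, hxR⟩ : ↥(R'.comap ι)), hxR⟩ := Subtype.ext hx.symm
    rw [hy, hc ⟨x, hxR⟩]
    exact Subgroup.mem_map_of_mem ι (h _ (fst_comap_le ι hι T R' hR') φ hφ ⟨x, hxR⟩)
  · rintro ⟨hT, h⟩
    refine ⟨(Subgroup.map_le_map_iff_of_injective hι).mp hT, ?_⟩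
    intro R hR φ hφ x
    have h1 := h (R.map ι) (Subgroup.map_mono hR) _ (fstFwd_mem ι hι X R (R.map ι) rfl hφ)
      ⟨ι x, Subgroup.mem_map_of_mem ι x.2⟩
    rw [fstFwd_apply] at h1
    obtain ⟨t, ht, htx⟩ := h1
    rw [← hι htx]; exact ht

/-- The image of `P ≤ T` under an automorphism of `T`, transported. -/
theorem fst_autImg (ι : Ω₁ →* Ω₂) (hι : Function.Injective ι) (T : Subgroup Ω₁) (α : MulAut ↥T)
    (P : Subgroup Ω₁) (hPT : P ≤ T) (P' : Subgroup Ω₂) (hP' : P' = P.map ι) :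
    (P'.subgroupOf (T.map ι)).map ((T.map ι).subtype.comp (fstAut ι hι T (T.map ι) rfl α).toMonoidHom) =
      ((P.subgroupOf T).map (T.subtype.comp α.toMonoidHom)).map ι := by
  ext y
  constructor
  · rintro ⟨s', hs', rfl⟩
    have hs'' : (s' : Ω₂) ∈ P.map ι := hP' ▸ (Subgroup.mem_subgroupOf.mp hs')
    obtain ⟨x, hx, hxs⟩ := hs''
    refine ⟨α ⟨x, hPT hx⟩, ⟨⟨x, hPT hx⟩, Subgroup.mem_subgroupOf.mpr hx, rfl⟩, ?_⟩
    exact (fstAut_apply' ι hι T (T.map ι) rfl α s' ⟨x, hPT hx⟩ hxs).symm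
  · rintro ⟨_, ⟨s, hs, rfl⟩, rfl⟩
    refine ⟨⟨ι s, Subgroup.mem_map_of_mem ι s.2⟩, ?_, ?_⟩
    · show ι s ∈ P'
      rw [hP']
      exact Subgroup.mem_map_of_mem ι (Subgroup.mem_subgroupOf.mp hs)
    · exact fstAut_apply ι hι T (T.map ι) rfl α s _

/-- Invariant subsystems are preserved and reflected. -/
theorem fstMap_invariant_iff (ι : Ω₁ →* Ω₂) (hι : Function.Injective ι) {T S : Subgroup Ω₁}
    (E : FusionSystem T) (F : FusionSystem S) :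
    E.IsInvariantIn F ↔ (fstMap ι hι E).IsInvariantIn (fstMap ι hι F) := by
  constructor
  · rintro ⟨h1, h2, h3, h4⟩
    have hTS : T ≤ S := fst_le_of_subsystem h1
    refine ⟨(fstMap_subsystem_iff ι hι E F).mp h1, (fstMap_stronglyClosed_iff ι hι F T).mp h2, ?_, ?_⟩
    · rintro P' hP'T φ' ⟨hP'r, φ, hφ, hc⟩ α' hα'
      obtain ⟨α, rfl⟩ := (fstAut ι hι T (T.map ι) rfl).surjective α'
      have hα : α ∈ F.autGroup T := (fstAut_mem_iff ι hι F T (T.map ι) rfl hTS α).mpr hα'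
      have hPT : P'.comap ι ≤ T := fst_comap_le ι hι T P' hP'T
      obtain ⟨χ, hχ, hχe⟩ := h3 (P'.comap ι) hPT φ hφ α hα
      have himg := fst_autImg ι hι T α (P'.comap ι) hPT P' (fst_eq_map_comap ι P' hP'r)
      refine ⟨fstFwd ι hι _ _ himg χ, fstFwd_mem ι hι E _ _ himg hχ, ?_⟩
      intro x' hφx' hαx'
      obtain ⟨x, hx⟩ := hP'r x'.2
      have hxP : x ∈ P'.comap ι := by rw [Subgroup.mem_comap, hx]; exact x'.2
      have hx' : x' = ⟨ι (⟨x, hxP⟩ : ↥(P'.comap ι)), hxP⟩ := Subtype.ext hx.symm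
      have e1 : φ' x' = ι (φ ⟨x, hxP⟩) := by rw [hx']; exact hc ⟨x, hxP⟩
      have hφT : φ ⟨x, hxP⟩ ∈ T := (E.le_of_mem hφ).2 _
      have e2 : ((fstAut ι hι T (T.map ι) rfl α ⟨x', hP'T x'.2⟩ : ↥(T.map ι)) : Ω₂) =
          ι (α ⟨x, hPT hxP⟩) := fstAut_apply' ι hι T (T.map ι) rfl α _ ⟨x, hPT hxP⟩ hx
      have e3 : ((fstAut ι hι T (T.map ι) rfl α ⟨φ' x', hφx'⟩ : ↥(T.map ι)) : Ω₂) =
          ι (α ⟨φ ⟨x, hxP⟩, hφT⟩) := fstAut_apply' ι hι T (T.map ι) rfl α _ ⟨φ ⟨x, hxP⟩, hφT⟩ e1.symm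
      have hαx : ((α ⟨(⟨x, hxP⟩ : ↥(P'.comap ι)), hPT hxP⟩ : ↥T) : Ω₁) ∈
          (Subgroup.subgroupOf (P'.comap ι) T).map (T.subtype.comp α.toMonoidHom) :=
        ⟨⟨x, hPT hxP⟩, Subgroup.mem_subgroupOf.mpr hxP, rfl⟩
      rw [e3, fstFwd_apply' ι hι _ _ himg χ _ ⟨α ⟨x, hPT hxP⟩, hαx⟩ e2.symm]
      exact congrArg ι (hχe ⟨x, hxP⟩ hφT hαx)
    · rintro P' hP'T φ' ⟨hP'r, φ, hφ, hc⟩
      have hPT : P'.comap ι ≤ T := fst_comap_le ι hι T P' hP'T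
      obtain ⟨α, hα, φ₀, hφ₀, he⟩ := h4 (P'.comap ι) hPT φ hφ
      have hE := fst_eq_map_comap ι P' hP'r
      refine ⟨fstAut ι hι T (T.map ι) rfl α, (fstAut_mem_iff ι hι F T (T.map ι) rfl hTS α).mp hα,
        fstFwd ι hι _ P' hE φ₀, fstFwd_mem ι hι E _ P' hE hφ₀, ?_⟩
      intro x' hx'T
      obtain ⟨x, hx⟩ := hP'r x'.2
      have hxP : x ∈ P'.comap ι := by rw [Subgroup.mem_comap, hx]; exact x'.2
      have hx' : x' = ⟨ι (⟨x, hxP⟩ : ↥(P'.comap ι)), hxP⟩ := Subtype.ext hx.symm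
      have e1 : φ' x' = ι (φ ⟨x, hxP⟩) := by rw [hx']; exact hc ⟨x, hxP⟩
      have hφ₀T : φ₀ ⟨x, hxP⟩ ∈ T := (E.le_of_mem hφ₀).2 _
      have e2 : fstFwd ι hι _ P' hE φ₀ x' = ι (φ₀ ⟨x, hxP⟩) := fstFwd_apply' ι hι _ P' hE φ₀ x' ⟨x, hxP⟩ hx
      rw [e1, fstAut_apply' ι hι T (T.map ι) rfl α _ ⟨φ₀ ⟨x, hxP⟩, hφ₀T⟩ e2.symm]
      exact congrArg ι (he ⟨x, hxP⟩ hφ₀T)
  · rintro ⟨h1, h2, h3, h4⟩
    have h1' := (fstMap_subsystem_iff ι hι E F).mpr h1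
    have hTS : T ≤ S := fst_le_of_subsystem h1'
    refine ⟨h1', (fstMap_stronglyClosed_iff ι hι F T).mpr h2, ?_, ?_⟩
    · intro P hPT φ hφ α hα
      have hα' := (fstAut_mem_iff ι hι F T (T.map ι) rfl hTS α).mp hα
      obtain ⟨χ', hχ', hχe'⟩ := h3 (P.map ι) (Subgroup.map_mono hPT) _ (fstFwd_mem ι hι E P (P.map ι) rfl hφ) _ hα'
      have himg := fst_autImg ι hι T α P hPT (P.map ι) rfl
      obtain ⟨χ, hχ, hχc⟩ := fstMap_mem_elim' ι hι E _ _ himg hχ'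
      refine ⟨χ, hχ, ?_⟩
      intro x hφx hαx
      apply hι
      have hx' : ι x ∈ P.map ι := Subgroup.mem_map_of_mem ι x.2
      have e1 : fstFwd ι hι P (P.map ι) rfl φ ⟨ι x, hx'⟩ = ι (φ x) := fstFwd_apply ι hι P (P.map ι) rfl φ x hx'
      have hφx' : fstFwd ι hι P (P.map ι) rfl φ ⟨ι x, hx'⟩ ∈ T.map ι := by
        rw [e1]; exact Subgroup.mem_map_of_mem ι hφx
      have e2 : ((fstAut ι hι T (T.map ι) rfl α ⟨(⟨ι x, hx'⟩ : ↥(P.map ι)), Subgroup.map_mono hPT hx'⟩ :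
          ↥(T.map ι)) : Ω₂) = ι (α ⟨x, hPT x.2⟩) :=
        fstAut_apply' ι hι T (T.map ι) rfl α _ ⟨x, hPT x.2⟩ rfl
      have hαx' : ((fstAut ι hι T (T.map ι) rfl α ⟨(⟨ι x, hx'⟩ : ↥(P.map ι)), Subgroup.map_mono hPT hx'⟩ :
          ↥(T.map ι)) : Ω₂) ∈ (Subgroup.subgroupOf (P.map ι) (T.map ι)).map
            ((T.map ι).subtype.comp (fstAut ι hι T (T.map ι) rfl α).toMonoidHom) :=
        ⟨⟨ι x, Subgroup.map_mono hPT hx'⟩, Subgroup.mem_subgroupOf.mpr hx', rfl⟩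
      have h5 := hχe' ⟨ι x, hx'⟩ hφx' hαx'
      have e3 : ((fstAut ι hι T (T.map ι) rfl α ⟨fstFwd ι hι P (P.map ι) rfl φ ⟨ι x, hx'⟩, hφx'⟩ :
          ↥(T.map ι)) : Ω₂) = ι (α ⟨φ x, hφx⟩) :=
        fstAut_apply' ι hι T (T.map ι) rfl α _ ⟨φ x, hφx⟩ e1.symm
      rw [e3] at h5
      rw [← h5, ← hχc ⟨α ⟨x, hPT x.2⟩, hαx⟩ (himg ▸ Subgroup.mem_map_of_mem ι hαx)]
      congr 1
      exact Subtype.ext e2.symm
    · intro P hPT φ hφ
      obtain ⟨α', hα', φ₀', hφ₀', he'⟩ := h4 (P.map ι) (Subgroup.map_mono hPT) _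
        (fstFwd_mem ι hι F P (P.map ι) rfl hφ)
      obtain ⟨α, rfl⟩ := (fstAut ι hι T (T.map ι) rfl).surjective α'
      obtain ⟨φ₀, hφ₀, hc₀⟩ := fstMap_mem_elim' ι hι E P (P.map ι) rfl hφ₀'
      refine ⟨α, (fstAut_mem_iff ι hι F T (T.map ι) rfl hTS α).mpr hα', φ₀, hφ₀, ?_⟩
      intro x hx
      apply hι
      have hx' : ι x ∈ P.map ι := Subgroup.mem_map_of_mem ι x.2
      have e0 : φ₀' ⟨ι x, hx'⟩ = ι (φ₀ x) := hc₀ x hx'
      have hT' : φ₀' ⟨ι x, hx'⟩ ∈ T.map ι := by rw [e0]; exact Subgroup.mem_map_of_mem ι hx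
      have h5 := he' ⟨ι x, hx'⟩ hT'
      rw [fstFwd_apply] at h5
      rw [h5]
      exact fstAut_apply' ι hι T (T.map ι) rfl α _ ⟨φ₀ x, hx⟩ e0.symm

end Cfsg.Agent.Helper35
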