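import Cfsg.Agent.Helper35.FsT4

/-!
# Transport of fusion systems (part 5): normal subsystems
-/

set_option autoImplicit false

namespace Cfsg.Agent.Helper35

open Cfsg Cfsg.FusionSystem

variable {Ω₁ : Type*} [Group Ω₁] {Ω₂ : Type*} [Group Ω₂]

theorem fst_centralizerIn_map (ι : Ω₁ →* Ω₂) (hι : Function.Injective ι) (S T : Subgroup Ω₁) :
    centralizerIn (S.map ι) (T.map ι) = (centralizerIn S T).map ι := by
  ext y
  constructor
  · rintro ⟨⟨s, hs, rfl⟩, hc⟩
    refine ⟨s, ⟨hs, ?_⟩, rfl⟩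
    intro t ht
    apply hι
    rw [map_mul, map_mul]
    exact hc (ι t) (Subgroup.mem_map_of_mem ι ht)
  · rintro ⟨s, ⟨hs, hc⟩, rfl⟩
    refine ⟨Subgroup.mem_map_of_mem ι hs, ?_⟩
    rintro _ ⟨t, ht, rfl⟩
    rw [← map_mul, ← map_mul, hc t ht]

theorem fst_normal_sup_map (ι : Ω₁ →* Ω₂) (hι : Function.Injective ι) (S T : Subgroup Ω₁) :
    T.map ι ⊔ centralizerIn (S.map ι) (T.map ι) = (T ⊔ centralizerIn S T).map ι := by
  rw [fst_centralizerIn_map ι hι, Subgroup.map_sup]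

/-- Normal subsystems are preserved and reflected. -/
theorem fstMap_normal_iff (ι : Ω₁ →* Ω₂) (hι : Function.Injective ι) {T S : Subgroup Ω₁} [Finite S]
    (p : ℕ) [Fact p.Prime] (hS : IsPGroup p S) (E : FusionSystem T) (F : FusionSystem S) :
    E.IsNormalIn F p ↔ (fstMap ι hι E).IsNormalIn (fstMap ι hι F) p := by
  have key : ∀ hTS : T ≤ S, (E.IsSaturated p ↔ (fstMap ι hι E).IsSaturated p) := by
    intro hTS
    have : Finite T := Finite.of_injective (Subgroup.inclusion hTS) (Subgroup.inclusion_injective hTS)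
    exact fstMap_saturated_iff ι hι p (hS.to_le hTS) E
  have hN := fst_normal_sup_map ι hι S T
  constructor
  · rintro ⟨⟨hE, hF, hinv⟩, hext⟩
    have hTS : T ≤ S := fst_le_of_subsystem hinv.1
    refine ⟨⟨(key hTS).mp hE, (fstMap_saturated_iff ι hι p hS F).mp hF,
      (fstMap_invariant_iff ι hι E F).mp hinv⟩, ?_⟩
    intro α' hα'
    obtain ⟨α, rfl⟩ := (fstAut ι hι T (T.map ι) rfl).surjective α'
    have hα : α ∈ E.autGroup T := (fstAut_mem_iff ι hι E T (T.map ι) rfl le_rfl α).mpr hα'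
    obtain ⟨β, hβ, hβ1, hβ2⟩ := hext α hα
    have hNS : T ⊔ centralizerIn S T ≤ S := sup_le hTS inf_le_left
    refine ⟨fstAut ι hι _ _ hN β, (fstAut_mem_iff ι hι F _ _ hN hNS β).mp hβ, ?_, ?_⟩
    · intro x'
      obtain ⟨x, hx, hxx'⟩ := x'.2
      have e1 : ((fstAut ι hι _ _ hN β (Subgroup.inclusion le_sup_left x') :
          ↥(T.map ι ⊔ centralizerIn (S.map ι) (T.map ι))) : Ω₂) =
          ι (β (Subgroup.inclusion le_sup_left ⟨x, hx⟩)) :=
        fstAut_apply' ι hι _ _ hN β (Subgroup.inclusion le_sup_left x')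
          (Subgroup.inclusion le_sup_left ⟨x, hx⟩) hxx'
      rw [e1, fstAut_apply' ι hι T (T.map ι) rfl α x' ⟨x, hx⟩ hxx']
      exact congrArg ι (hβ1 ⟨x, hx⟩)
    · intro c' hc'
      have hc'' : (c' : Ω₂) ∈ (centralizerIn S T).map ι := by
        rw [← fst_centralizerIn_map ι hι]; exact hc'
      obtain ⟨c, hc, hcc'⟩ := hc''
      have hcN : c ∈ T ⊔ centralizerIn S T := (le_sup_right : centralizerIn S T ≤ _) hc
      rw [fstAut_apply' ι hι _ _ hN β c' ⟨c, hcN⟩ hcc', ← hcc', ← map_inv, ← map_mul]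
      have h4 : ι (c⁻¹ * ((β ⟨c, hcN⟩ : ↥(T ⊔ centralizerIn S T)) : Ω₁)) ∈
          centralizerIn (T.map ι) (T.map ι) := by
        rw [fst_centralizerIn_map ι hι T T]
        exact Subgroup.mem_map_of_mem ι (hβ2 ⟨c, hcN⟩ hc)
      exact h4
  · rintro ⟨⟨hE', hF', hinv'⟩, hext'⟩
    have hinv := (fstMap_invariant_iff ι hι E F).mpr hinv'
    have hTS : T ≤ S := fst_le_of_subsystem hinv.1
    refine ⟨⟨(key hTS).mpr hE', (fstMap_saturated_iff ι hι p hS F).mpr hF', hinv⟩, ?_⟩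
    intro α hα
    have hα' := (fstAut_mem_iff ι hι E T (T.map ι) rfl le_rfl α).mp hα
    obtain ⟨β', hβ', hβ1, hβ2⟩ := hext' _ hα'
    obtain ⟨β, rfl⟩ := (fstAut ι hι _ _ hN).surjective β'
    have hNS : T ⊔ centralizerIn S T ≤ S := sup_le hTS inf_le_left
    refine ⟨β, (fstAut_mem_iff ι hι F _ _ hN hNS β).mpr hβ', ?_, ?_⟩
    · intro x
      apply hι
      have h1 := hβ1 ⟨ι x, Subgroup.mem_map_of_mem ι x.2⟩
      rw [fstAut_apply' ι hι _ _ hN β _ (Subgroup.inclusion le_sup_left x) rfl,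
        fstAut_apply' ι hι T (T.map ι) rfl α _ x rfl] at h1
      exact h1
    · intro c hc
      have hc' : ι c ∈ centralizerIn (S.map ι) (T.map ι) := by
        rw [fst_centralizerIn_map ι hι]; exact Subgroup.mem_map_of_mem ι hc
      have hcN' : ι c ∈ T.map ι ⊔ centralizerIn (S.map ι) (T.map ι) :=
        (le_sup_right : centralizerIn (S.map ι) (T.map ι) ≤ _) hc'
      have h2 := hβ2 ⟨ι c, hcN'⟩ hc'
      rw [fstAut_apply' ι hι _ _ hN β _ c rfl, ← map_inv, ← map_mul] at h2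
      have h3 : ι ((c : Ω₁)⁻¹ * ((β c : ↥(T ⊔ centralizerIn S T)) : Ω₁)) ∈
          centralizerIn (T.map ι) (T.map ι) := h2
      rw [fst_centralizerIn_map ι hι T T] at h3
      obtain ⟨z, hz, hze⟩ := h3
      rw [← hι hze]; exact hz

end Cfsg.Agent.Helper35
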