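import Cfsg.Agent.Helper35.FsT5

/-!
# Transport of fusion systems (part 6): subnormal subsystems
-/

set_option autoImplicit false

namespace Cfsg.Agent.Helper35

open Cfsg Cfsg.FusionSystem

variable {Ω₁ : Type*} [Group Ω₁] {Ω₂ : Type*} [Group Ω₂]

/-- A subnormal subsystem lives over a subgroup of the big system's group. -/
theorem fst_subnormal_le {Ω : Type*} [Group Ω] {p : ℕ} {T S : Subgroup Ω} {E : FusionSystem T}
    {F : FusionSystem S} (h : E.IsSubnormalIn F p) : T ≤ S := by
  induction h with
  | refl F p => exact le_rfl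
  | step hED hDF ih => exact ih.trans (fst_le_of_subsystem hDF.1.2.2.1)

theorem fst_finite_of_le {Ω : Type*} [Group Ω] {T S : Subgroup Ω} (hTS : T ≤ S) [Finite S] : Finite T :=
  Finite.of_injective (Subgroup.inclusion hTS) (Subgroup.inclusion_injective hTS)

/-- Subnormality is preserved. -/
theorem fstMap_subnormal (ι : Ω₁ →* Ω₂) (hι : Function.Injective ι) {p : ℕ} {T S : Subgroup Ω₁}
    {E : FusionSystem T} {F : FusionSystem S} (h : E.IsSubnormalIn F p) :
    Fact p.Prime → Finite S → IsPGroup p S → (fstMap ι hι E).IsSubnormalIn (fstMap ι hι F) p := by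
  induction h with
  | refl F p => intro _ _ _; exact IsSubnormalIn.refl _ _
  | step hED hDF ih =>
    intro hp hfin hS
    have hUS := fst_le_of_subsystem hDF.1.2.2.1
    have hfinU := fst_finite_of_le hUS
    exact IsSubnormalIn.step (ih hp hfinU (hS.to_le hUS)) ((fstMap_normal_iff ι hι _ hS _ _).mp hDF)

/-- Subnormality is reflected (general form: for a subnormal subsystem of a system of the form `fstMap Y`). -/
theorem fstComap_subnormal (ι : Ω₁ →* Ω₂) (hι : Function.Injective ι) {p : ℕ} {T' S' : Subgroup Ω₂}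
    {E' : FusionSystem T'} {F' : FusionSystem S'} (h : E'.IsSubnormalIn F' p) :
    Fact p.Prime → ∀ {S : Subgroup Ω₁} (Y : FusionSystem S), Finite S → IsPGroup p S →
      fstSame F' (fstMap ι hι Y) → (fstComap ι hι E').IsSubnormalIn Y p := by
  induction h with
  | refl F' p =>
    intro hp S Y hfin hS hsame
    have h1 : fstSame (fstComap ι hι F') Y := (fstComap_same ι hι hsame).trans (fstComap_fstMap ι hι Y)
    exact h1.symm.elim (motive := fun {V} (Z : FusionSystem V) => Z.IsSubnormalIn Y p)
      (IsSubnormalIn.refl Y p)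
  | step hED hDF ih =>
    intro hp S Y hfin hS hsame
    rename_i U' S'' E'' D' F'' p
    have hU'S' : U' ≤ S'' := fst_le_of_subsystem hDF.1.2.2.1
    have hS' : S'' = S.map ι := hsame.subgroup_eq
    have hU'r : U' ≤ ι.range := hU'S'.trans (hS' ▸ Subgroup.map_le_range ι S)
    have hD : fstSame (fstMap ι hι (fstComap ι hι D')) D' := fstMap_fstComap ι hι D' hU'r
    have hU0 : U'.comap ι ≤ S := fst_comap_le ι hι S U' (hS' ▸ hU'S')
    have hfinU := fst_finite_of_le hU0
    have ih1 := ih hp (fstComap ι hι D') hfinU (hS.to_le hU0) hD.symm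
    have h2 : D'.IsNormalIn (fstMap ι hι Y) p :=
      hsame.elim (motive := fun {V} (Z : FusionSystem V) => D'.IsNormalIn Z p) hDF
    have h3 : (fstMap ι hι (fstComap ι hι D')).IsNormalIn (fstMap ι hι Y) p :=
      hD.symm.elim (motive := fun {V} (Z : FusionSystem V) => Z.IsNormalIn (fstMap ι hι Y) p) h2
    exact IsSubnormalIn.step ih1 ((fstMap_normal_iff ι hι p hS _ Y).mpr h3)

/-- Subnormality is preserved and reflected. -/
theorem fstMap_subnormal_iff (ι : Ω₁ →* Ω₂) (hι : Function.Injective ι) {T S : Subgroup Ω₁} [Finite S]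
    (p : ℕ) [Fact p.Prime] (hS : IsPGroup p S) (E : FusionSystem T) (F : FusionSystem S) :
    E.IsSubnormalIn F p ↔ (fstMap ι hι E).IsSubnormalIn (fstMap ι hι F) p := by
  constructor
  · intro h
    exact fstMap_subnormal ι hι h inferInstance inferInstance hS
  · intro h
    have h1 := fstComap_subnormal ι hι h inferInstance F inferInstance hS (fstSame.refl _)
    exact (fstComap_fstMap ι hι E).elim (motive := fun {V} (Z : FusionSystem V) => Z.IsSubnormalIn F p) h1

end Cfsg.Agent.Helper35
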