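import Cfsg.Agent.Helper35.FsT6

/-!
# Transport of fusion systems (part 7): the hyperfocal subgroup
-/

set_option autoImplicit false

namespace Cfsg.Agent.Helper35

open Cfsg Cfsg.FusionSystem

variable {Ω₁ : Type*} [Group Ω₁] {Ω₂ : Type*} [Group Ω₂]

/-- The isomorphism `Aut_X(P) ≃* Aut_{fstMap X}(P')` for `P' = P.map ι`, `P ≤ U`. -/
noncomputable def fstAutG (ι : Ω₁ →* Ω₂) (hι : Function.Injective ι) {U : Subgroup Ω₁} (X : FusionSystem U)
    (P : Subgroup Ω₁) (P' : Subgroup Ω₂) (h : P' = P.map ι) (hP : P ≤ U) :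
    ↥(X.autGroup P) ≃* ↥((fstMap ι hι X).autGroup P') where
  toFun a := ⟨fstAut ι hι P P' h a.1, (fstAut_mem_iff ι hι X P P' h hP a.1).mp a.2⟩
  invFun b := ⟨(fstAut ι hι P P' h).symm b.1, (fstAut_mem_iff ι hι X P P' h hP _).mpr (by
    rw [MulEquiv.apply_symm_apply]; exact b.2)⟩
  left_inv a := Subtype.ext ((fstAut ι hι P P' h).symm_apply_apply a.1)
  right_inv b := Subtype.ext ((fstAut ι hι P P' h).apply_symm_apply b.1)
  map_mul' a b := Subtype.ext (map_mul (fstAut ι hι P P' h) a.1 b.1)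

theorem fstAutG_coe (ι : Ω₁ →* Ω₂) (hι : Function.Injective ι) {U : Subgroup Ω₁} (X : FusionSystem U)
    (P : Subgroup Ω₁) (P' : Subgroup Ω₂) (h : P' = P.map ι) (hP : P ≤ U) (a : ↥(X.autGroup P)) :
    ((fstAutG ι hι X P P' h hP a : ↥((fstMap ι hι X).autGroup P')) : MulAut ↥P') =
      fstAut ι hι P P' h (a : MulAut ↥P) := rfl

theorem fstAutG_symm_coe (ι : Ω₁ →* Ω₂) (hι : Function.Injective ι) {U : Subgroup Ω₁} (X : FusionSystem U)
    (P : Subgroup Ω₁) (P' : Subgroup Ω₂) (h : P' = P.map ι) (hP : P ≤ U)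
    (b : ↥((fstMap ι hι X).autGroup P')) :
    fstAut ι hι P P' h (((fstAutG ι hι X P P' h hP).symm b : ↥(X.autGroup P)) : MulAut ↥P) =
      (b : MulAut ↥P') := by
  rw [← fstAutG_coe ι hι X P P' h hP, MulEquiv.apply_symm_apply]

theorem fst_pResidual_equiv_mp {H H' : Type*} [Group H] [Group H'] (f : H ≃* H') (p : ℕ) (g : H)
    (hg : g ∈ pResidual p H) : f g ∈ pResidual p H' := by
  have h1 : (pResidual p H).map f.toMonoidHom ≤ pResidual p H' := by
    unfold pResidual
    rw [MonoidHom.map_closure]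
    apply Subgroup.closure_mono
    rintro _ ⟨g, hg, rfl⟩
    show Nat.Coprime (orderOf (f g)) p
    rw [MulEquiv.orderOf_eq]
    exact hg
  exact h1 (Subgroup.mem_map_of_mem _ hg)

/-- `O^p` corresponds under a group isomorphism. -/
theorem fst_pResidual_equiv {G G' : Type*} [Group G] [Group G'] (e : G ≃* G') (p : ℕ) (g : G) :
    g ∈ pResidual p G ↔ e g ∈ pResidual p G' := by
  constructor
  · exact fst_pResidual_equiv_mp e p g
  · intro h
    have := fst_pResidual_equiv_mp e.symm p (e g) h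
    rwa [MulEquiv.symm_apply_apply] at this

/-- The hyperfocal subgroup of the image is the image of the hyperfocal subgroup. -/
theorem fstMap_hyperfocal (ι : Ω₁ →* Ω₂) (hι : Function.Injective ι) {U : Subgroup Ω₁} (X : FusionSystem U)
    (p : ℕ) : (fstMap ι hι X).hyperfocalSubgroup p = (X.hyperfocalSubgroup p).map ι := by
  unfold hyperfocalSubgroup
  rw [MonoidHom.map_closure]
  congr 1
  ext y
  constructor
  · rintro ⟨P', α', x', hP', hα', rfl⟩
    have hP'r : P' ≤ ι.range := hP'.trans (Subgroup.map_le_range ι U)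
    have hE := fst_eq_map_comap ι P' hP'r
    have hPU := fst_comap_le ι hι U P' hP'
    refine ⟨_, ⟨P'.comap ι, (fstAutG ι hι X _ P' hE hPU).symm α', (fstEq ι hι _ P' hE).symm x', hPU, ?_,
      rfl⟩, ?_⟩
    · rw [fst_pResidual_equiv (fstAutG ι hι X _ P' hE hPU) p, MulEquiv.apply_symm_apply]
      exact hα'
    · rw [map_mul, map_inv, fstEq_symm_coe]
      congr 1
      have h1 := fstAut_apply' ι hι _ P' hE
        (((fstAutG ι hι X _ P' hE hPU).symm α' : ↥(X.autGroup (P'.comap ι))) : MulAut ↥(P'.comap ι)) x'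
        ((fstEq ι hι _ P' hE).symm x') (fstEq_symm_coe ι hι _ P' hE x')
      rw [fstAutG_symm_coe] at h1
      exact h1.symm
  · rintro ⟨_, ⟨P, α, x, hP, hα, rfl⟩, rfl⟩
    refine ⟨P.map ι, fstAutG ι hι X P (P.map ι) rfl hP α, ⟨ι x, Subgroup.mem_map_of_mem ι x.2⟩,
      Subgroup.map_mono hP, (fst_pResidual_equiv _ p α).mp hα, ?_⟩
    rw [map_mul, map_inv]
    congr 1
    exact (fstAut_apply ι hι P (P.map ι) rfl α.1 x _).symm

end Cfsg.Agent.Helper35
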