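import Cfsg.Agent.Helper35.FsT7
import Cfsg.Agent.S5144

/-!
# Transport of fusion systems (part 8): central subgroups and the centre
-/

set_option autoImplicit false

namespace Cfsg.Agent.Helper35

open Cfsg Cfsg.FusionSystem

variable {Ω₁ : Type*} [Group Ω₁] {Ω₂ : Type*} [Group Ω₂]

/-- Central subgroups are preserved and reflected. -/
theorem fstMap_central_iff (ι : Ω₁ →* Ω₂) (hι : Function.Injective ι) {U : Subgroup Ω₁} (X : FusionSystem U)
    (Q : Subgroup Ω₁) : X.IsCentral Q ↔ (fstMap ι hι X).IsCentral (Q.map ι) := by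
  constructor
  · rintro ⟨hQ, h⟩
    refine ⟨Subgroup.map_mono hQ, ?_⟩
    rintro P' φ' ⟨hP'r, φ, hφ, hc⟩
    obtain ⟨ψ, hψ, h1, h2⟩ := h _ φ hφ
    have hsup : P' ⊔ Q.map ι = (P'.comap ι ⊔ Q).map ι := by
      rw [Subgroup.map_sup, ← fst_eq_map_comap ι P' hP'r]
    refine ⟨fstFwd ι hι _ _ hsup ψ, fstFwd_mem ι hι X _ _ hsup hψ, ?_, ?_⟩
    · intro x'
      obtain ⟨x, hx⟩ := hP'r x'.2
      have hxP : x ∈ P'.comap ι := by rw [Subgroup.mem_comap, hx]; exact x'.2
      have hx' : x' = ⟨ι (⟨x, hxP⟩ : ↥(P'.comap ι)), hxP⟩ := Subtype.ext hx.symm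
      have e1 : φ' x' = ι (φ ⟨x, hxP⟩) := by rw [hx']; exact hc ⟨x, hxP⟩
      rw [e1, fstFwd_apply' ι hι _ _ hsup ψ (Subgroup.inclusion le_sup_left x')
        (Subgroup.inclusion le_sup_left ⟨x, hxP⟩) hx]
      exact congrArg ι (h1 ⟨x, hxP⟩)
    · intro q'
      obtain ⟨q, hq, hqq'⟩ := q'.2
      rw [fstFwd_apply' ι hι _ _ hsup ψ (Subgroup.inclusion le_sup_right q')
        (Subgroup.inclusion le_sup_right ⟨q, hq⟩) hqq', h2 ⟨q, hq⟩]
      exact hqq'
  · rintro ⟨hQ, h⟩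
    refine ⟨(Subgroup.map_le_map_iff_of_injective hι).mp hQ, ?_⟩
    intro P φ hφ
    obtain ⟨ψ', hψ', h1, h2⟩ := h _ _ (fstFwd_mem ι hι X P (P.map ι) rfl hφ)
    have hsup : P.map ι ⊔ Q.map ι = (P ⊔ Q).map ι := (Subgroup.map_sup P Q ι).symm
    obtain ⟨ψ, hψ, hc⟩ := fstMap_mem_elim' ι hι X _ _ hsup hψ'
    refine ⟨ψ, hψ, ?_, ?_⟩
    · intro x
      apply hι
      have hx' : ι x ∈ P.map ι := Subgroup.mem_map_of_mem ι x.2
      have h3 := h1 ⟨ι x, hx'⟩
      rw [fstFwd_apply] at h3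
      rw [← h3]
      exact (hc (Subgroup.inclusion le_sup_left x) _).symm
    · intro q
      apply hι
      have hq' : ι q ∈ Q.map ι := Subgroup.mem_map_of_mem ι q.2
      have h3 := h2 ⟨ι q, hq'⟩
      exact (hc (Subgroup.inclusion le_sup_right q) _).symm.trans h3

/-- The centre of the image is the image of the centre. -/
theorem fstMap_center (ι : Ω₁ →* Ω₂) (hι : Function.Injective ι) {U : Subgroup Ω₁} (X : FusionSystem U) :
    (fstMap ι hι X).center = X.center.map ι := by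
  apply le_antisymm
  · apply sSup_le
    intro Q' hQ'
    have hQ'r : Q' ≤ ι.range := hQ'.1.trans (Subgroup.map_le_range ι U)
    have hE := fst_eq_map_comap ι Q' hQ'r
    have hQ : X.IsCentral (Q'.comap ι) := by
      rw [fstMap_central_iff ι hι X, ← hE]; exact hQ'
    rw [hE]
    exact Subgroup.map_mono (le_sSup hQ)
  · rw [Subgroup.map_le_iff_le_comap]
    apply sSup_le
    intro Q hQ
    rw [← Subgroup.map_le_iff_le_comap]
    exact le_sSup ((fstMap_central_iff ι hι X Q).mp hQ)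

/-- The centre of a fusion system over a finite group is strongly closed. -/
theorem fst_center_stronglyClosed {Ω : Type*} [Group Ω] {S : Subgroup Ω} [Finite S] (F : FusionSystem S) :
    F.StronglyClosed F.center := by
  have hZc : F.IsCentral F.center := Cfsg.Agent.S5144.result F
  refine ⟨hZc.1, fun R hR φ hφ x => ?_⟩
  obtain ⟨ψ, -, h1, h2⟩ := hZc.2 R φ hφ
  have e : Subgroup.inclusion (le_sup_left : R ≤ R ⊔ F.center) x =
      Subgroup.inclusion (le_sup_right : F.center ≤ R ⊔ F.center) ⟨x, hR x.2⟩ := Subtype.ext rfl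
  rw [← h1 x, e, h2]
  exact hR x.2

end Cfsg.Agent.Helper35
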