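import Cfsg.Agent.Helper35.FsT8
import Cfsg.Agent.Helper85.Factor

/-!
# Transport of fusion systems (part 9): factor systems
-/

set_option autoImplicit false

namespace Cfsg.Agent.Helper35

open Cfsg Cfsg.FusionSystem

variable {Ω₁ : Type*} [Group Ω₁] {Ω₂ : Type*} [Group Ω₂]

/-- Uniqueness of the factor system. -/
theorem fst_factorSystem_unique {Ω Ω' : Type*} [Group Ω] [Group Ω'] {S : Subgroup Ω} (F : FusionSystem S)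
    (S₀ : Subgroup Ω) (θ : ↥S →* Ω') {S' S'' : Subgroup Ω'} {E : FusionSystem S'} {E' : FusionSystem S''}
    (h : F.IsFactorSystem S₀ θ E) (h' : F.IsFactorSystem S₀ θ E') : fstSame E E' := by
  intro P'
  ext φ'
  rw [h.2.2.2 P' φ', h'.2.2.2 P' φ', ← h.2.2.1, ← h'.2.2.1]

/-- The image of a factor system is the factor system of the image. -/
theorem fstMap_factorSystem {Ω₁' Ω₂' : Type*} [Group Ω₁'] [Group Ω₂'] (ι : Ω₁ →* Ω₂)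
    (hι : Function.Injective ι) (ψ : Ω₁' →* Ω₂') (hψ : Function.Injective ψ) {U : Subgroup Ω₁}
    (X : FusionSystem U) (S₀ : Subgroup Ω₁) (θ₁ : ↥U →* Ω₁') {S₁ : Subgroup Ω₁'} (E₁ : FusionSystem S₁)
    (hE₁ : X.IsFactorSystem S₀ θ₁ E₁) (S₀' : Subgroup Ω₂) (hS₀' : S₀' = S₀.map ι)
    (θ₂ : ↥(U.map ι) →* Ω₂')
    (hθ : ∀ u : ↥U, θ₂ ⟨ι u, Subgroup.mem_map_of_mem ι u.2⟩ = ψ (θ₁ u)) :
    (fstMap ι hι X).IsFactorSystem S₀' θ₂ (fstMap ψ hψ E₁) := by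
  obtain ⟨h1, h2, h3, h4⟩ := hE₁
  subst hS₀'
  have hθ' : ∀ (y : ↥(U.map ι)) (u : ↥U), ι u = y → θ₂ y = ψ (θ₁ u) := by
    intro y u hu
    have : y = ⟨ι u, Subgroup.mem_map_of_mem ι u.2⟩ := Subtype.ext hu.symm
    rw [this]; exact hθ u
  have hpre : ∀ P'' : Subgroup Ω₂', preimageAlong θ₂ P'' = (preimageAlong θ₁ (P''.comap ψ)).map ι := by
    intro P''
    ext y
    rw [Helper85.mem_preimageAlong]
    constructor
    · rintro ⟨hy, hyP⟩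
      obtain ⟨u, hu, huy⟩ := id hy
      refine ⟨u, (Helper85.mem_preimageAlong θ₁ _ u).mpr ⟨hu, ?_⟩, huy⟩
      show ψ (θ₁ ⟨u, hu⟩) ∈ P''
      rw [← hθ' ⟨y, hy⟩ ⟨u, hu⟩ huy]
      exact hyP
    · rintro ⟨u, hu, rfl⟩
      obtain ⟨huU, huP⟩ := (Helper85.mem_preimageAlong θ₁ _ u).mp hu
      refine ⟨Subgroup.mem_map_of_mem ι huU, ?_⟩
      rw [hθ' _ ⟨u, huU⟩ rfl]
      exact huP
  refine ⟨Subgroup.map_mono h1, ?_, ?_, ?_⟩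
  · intro s'
    obtain ⟨u, hu, hus⟩ := s'.2
    rw [hθ' s' ⟨u, hu⟩ hus]
    constructor
    · intro h
      have h5 : θ₁ ⟨u, hu⟩ = 1 := hψ (by rw [h, map_one])
      exact ⟨u, (h2 ⟨u, hu⟩).mp h5, hus⟩
    · rintro ⟨z, hz, hzs⟩
      have hzu : z = u := hι (hzs.trans hus.symm)
      subst hzu
      rw [(h2 ⟨z, hu⟩).mpr hz, map_one]
  · rw [← h3]
    ext y
    constructor
    · rintro ⟨s', rfl⟩
      obtain ⟨u, hu, hus⟩ := s'.2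
      exact ⟨θ₁ ⟨u, hu⟩, ⟨_, rfl⟩, (hθ' s' ⟨u, hu⟩ hus).symm⟩
    · rintro ⟨_, ⟨u, rfl⟩, rfl⟩
      exact ⟨⟨ι u, Subgroup.mem_map_of_mem ι u.2⟩, hθ u⟩
  · intro P'' φ''
    constructor
    · rintro ⟨hP''r, φ₁, hφ₁, hc⟩
      obtain ⟨hle, φ₀, hφ₀, hPU, hφU, hPP, hind⟩ := (h4 _ φ₁).mp hφ₁
      have hφ' := fstFwd_mem ι hι X _ _ (hpre P'') hφ₀
      refine ⟨?_, fstFwd ι hι _ _ (hpre P'') φ₀, hφ', ?_⟩
      · rw [fst_eq_map_comap ψ P'' hP''r]; exact Subgroup.map_mono hle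
      · have hP2 : preimageAlong θ₂ P'' ≤ U.map ι := ((fstMap ι hι X).le_of_mem hφ').1
        have hφ2 := ((fstMap ι hι X).le_of_mem hφ').2
        have hmem : ∀ x' : ↥(preimageAlong θ₂ P''), θ₂ ⟨x', hP2 x'.2⟩ ∈ P'' := by
          intro x'
          obtain ⟨_, h6⟩ := (Helper85.mem_preimageAlong θ₂ P'' x').mp x'.2
          exact h6
        refine ⟨hP2, hφ2, hmem, ?_⟩
        intro x'
        have hx' : (x' : Ω₂) ∈ (preimageAlong θ₁ (P''.comap ψ)).map ι := hpre P'' ▸ x'.2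
        obtain ⟨x, hx, hxx'⟩ := hx'
        have e1 : θ₂ ⟨x', hP2 x'.2⟩ = ψ (θ₁ ⟨x, hPU hx⟩) := hθ' _ ⟨x, hPU hx⟩ hxx'
        have e2 : fstFwd ι hι _ _ (hpre P'') φ₀ x' = ι (φ₀ ⟨x, hx⟩) :=
          fstFwd_apply' ι hι _ _ (hpre P'') φ₀ x' ⟨x, hx⟩ hxx'
        have e3 : θ₂ ⟨fstFwd ι hι _ _ (hpre P'') φ₀ x', hφ2 x'⟩ = ψ (θ₁ ⟨φ₀ ⟨x, hx⟩, hφU ⟨x, hx⟩⟩) :=
          hθ' _ ⟨φ₀ ⟨x, hx⟩, hφU ⟨x, hx⟩⟩ e2.symm
        rw [e3, ← hind ⟨x, hx⟩, ← hc ⟨θ₁ ⟨x, hPU hx⟩, hPP ⟨x, hx⟩⟩]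
        congr 1
        exact Subtype.ext e1
    · rintro ⟨hP''le, φ, hφ, hP2, hφ2, hmem, hind⟩
      have hP''r : P'' ≤ ψ.range := hP''le.trans (Subgroup.map_le_range ψ S₁)
      obtain ⟨φ₀, hφ₀, hc₀⟩ := fstMap_mem_elim' ι hι X _ _ (hpre P'') hφ
      have hPU : preimageAlong θ₁ (P''.comap ψ) ≤ U := (X.le_of_mem hφ₀).1
      have hφU := (X.le_of_mem hφ₀).2
      have hPP : ∀ x : ↥(preimageAlong θ₁ (P''.comap ψ)), θ₁ ⟨x, hPU x.2⟩ ∈ P''.comap ψ := by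
        intro x
        obtain ⟨_, h6⟩ := (Helper85.mem_preimageAlong θ₁ _ x).mp x.2
        exact h6
      have key : ∀ x : ↥(preimageAlong θ₁ (P''.comap ψ)),
          φ'' ⟨ψ (θ₁ ⟨x, hPU x.2⟩), hPP x⟩ = ψ (θ₁ ⟨φ₀ x, hφU x⟩) := by
        intro x
        have hx' : ι x ∈ preimageAlong θ₂ P'' := by
          rw [hpre P'']; exact Subgroup.mem_map_of_mem ι x.2
        have e1 : θ₂ ⟨ι x, hP2 hx'⟩ = ψ (θ₁ ⟨x, hPU x.2⟩) := hθ' _ ⟨x, hPU x.2⟩ rfl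
        have e2 : φ ⟨ι x, hx'⟩ = ι (φ₀ x) := hc₀ x hx'
        have e3 : θ₂ ⟨φ ⟨ι x, hx'⟩, hφ2 _⟩ = ψ (θ₁ ⟨φ₀ x, hφU x⟩) := hθ' _ ⟨φ₀ x, hφU x⟩ e2.symm
        rw [← e3, ← hind ⟨ι x, hx'⟩]
        congr 1
        exact Subtype.ext e1.symm
      have hcomap : P''.comap ψ ≤ S₁ := by
        intro z hz
        obtain ⟨w, hw, hwz⟩ := hP''le (show ψ z ∈ P'' from hz)
        rw [← hψ hwz]; exact hw
      have hsurj : ∀ z : ↥(P''.comap ψ), ∃ x : ↥(preimageAlong θ₁ (P''.comap ψ)),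
          θ₁ ⟨x, hPU x.2⟩ = z := by
        intro z
        have hzS : (z : Ω₁') ∈ θ₁.range := by rw [h3]; exact hcomap z.2
        obtain ⟨u, hu⟩ := hzS
        have huz : θ₁ ⟨u, u.2⟩ ∈ P''.comap ψ := by
          have : (⟨u, u.2⟩ : ↥U) = u := Subtype.ext rfl
          rw [this, hu]; exact z.2
        exact ⟨⟨u, (Helper85.mem_preimageAlong θ₁ _ u).mpr ⟨u.2, huz⟩⟩, hu⟩
      have hval : ∀ z : ↥(P''.comap ψ), φ'' ⟨ψ z, z.2⟩ ∈ ψ.range := by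
        intro z
        obtain ⟨x, hx⟩ := hsurj z
        have e : (⟨ψ z, z.2⟩ : ↥P'') = ⟨ψ (θ₁ ⟨x, hPU x.2⟩), hPP x⟩ := Subtype.ext (congrArg ψ hx.symm)
        rw [e, key x]
        exact ⟨_, rfl⟩
      obtain ⟨φ₁, hφ₁⟩ : ∃ φ₁ : ↥(P''.comap ψ) →* Ω₁', ∀ z : ↥(P''.comap ψ),
          ψ (φ₁ z) = φ'' ⟨ψ z, z.2⟩ := by
        refine ⟨(MonoidHom.ofInjective hψ).symm.toMonoidHom.comp
          ((φ''.comp (fstEq ψ hψ (P''.comap ψ) P'' (fst_eq_map_comap ψ P'' hP''r)).toMonoidHom).codRestrict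
            ψ.range (fun z => hval z)), fun z => ?_⟩
        exact MonoidHom.apply_ofInjective_symm hψ _
      refine ⟨hP''r, φ₁, ?_, fun z => (hφ₁ z).symm⟩
      rw [h4]
      refine ⟨hcomap, φ₀, hφ₀, hPU, hφU, hPP, ?_⟩
      intro x
      apply hψ
      rw [hφ₁]
      exact key x

end Cfsg.Agent.Helper35
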