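import Mathlib
import Cfsg.Agent.Helper76.SouFC3
import Cfsg.Agent.Helper76.SouLU3
import Cfsg.Agent.Helper84.SouDIAG
import Cfsg.Agent.Helper39.SouSTEP3
import Cfsg.Agent.Helper88.SouCONJ3

/-!
# Thompson-type covering of `PSL₃(q)` by the square of a semisimple class

Assembly of the pieces of CALL S2459 (Sourour's LU factorisation for `3 × 3` matrices):
every non-scalar determinant-one matrix is a product of two `SL₃`-conjugates of a fixed
semisimple matrix `D` (`D = diag(1, a, a⁻¹)` when `|F| ≥ 4`, an element of order four when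
`|F| = 3`).
-/

set_option autoImplicit false
open Matrix

namespace Cfsg.Agent.Helper35

/-- Conjugating by `M` or by a determinant-one rescaling of `M` gives the same conjugate. -/
theorem sou_conj_adjust {F : Type*} [Field F] (M D : Matrix (Fin 3) (Fin 3) F) (hM : M.det ≠ 0)
    (hD : ∀ δ : F, !![δ, 0, 0; 0, 1, 0; 0, 0, 1] * D = D * !![δ, 0, 0; 0, 1, 0; 0, 0, 1]) :
    ∃ X : Matrix (Fin 3) (Fin 3) F, X.det = 1 ∧ X * D * X⁻¹ = M * D * M⁻¹ := by
  have hZd : (!![M.det⁻¹, 0, 0; 0, 1, 0; 0, 0, 1] : Matrix (Fin 3) (Fin 3) F).det = M.det⁻¹ := by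
    rw [Matrix.det_fin_three]; simp
  have hZ : IsUnit (!![M.det⁻¹, 0, 0; 0, 1, 0; 0, 0, 1] : Matrix (Fin 3) (Fin 3) F).det := by
    rw [hZd]; exact isUnit_iff_ne_zero.mpr (inv_ne_zero hM)
  refine ⟨M * !![M.det⁻¹, 0, 0; 0, 1, 0; 0, 0, 1], ?_, ?_⟩
  · rw [Matrix.det_mul, hZd, mul_inv_cancel₀ hM]
  · rw [Matrix.mul_inv_rev]
    calc M * !![M.det⁻¹, 0, 0; 0, 1, 0; 0, 0, 1] * D *
          ((!![M.det⁻¹, 0, 0; 0, 1, 0; 0, 0, 1] : Matrix (Fin 3) (Fin 3) F)⁻¹ * M⁻¹)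
        = M * (!![M.det⁻¹, 0, 0; 0, 1, 0; 0, 0, 1] * D) *
          (!![M.det⁻¹, 0, 0; 0, 1, 0; 0, 0, 1] : Matrix (Fin 3) (Fin 3) F)⁻¹ * M⁻¹ := by
          simp only [mul_assoc]
      _ = M * D * (!![M.det⁻¹, 0, 0; 0, 1, 0; 0, 0, 1] *
          (!![M.det⁻¹, 0, 0; 0, 1, 0; 0, 0, 1] : Matrix (Fin 3) (Fin 3) F)⁻¹) * M⁻¹ := by
          rw [hD]; simp only [mul_assoc]
      _ = M * D * M⁻¹ := by rw [Matrix.mul_nonsing_inv _ hZ, mul_one]

/-- Assembly: a factorisation of a conjugate of `A` into two `GL`-conjugates of `D` gives a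
factorisation of `A` into two `SL`-conjugates of `D`. -/
theorem sou_assemble {F : Type*} [Field F] (A P X0 Y0 D : Matrix (Fin 3) (Fin 3) F)
    (hP : P.det ≠ 0) (hX0 : X0.det ≠ 0) (hY0 : Y0.det ≠ 0)
    (hD : ∀ δ : F, !![δ, 0, 0; 0, 1, 0; 0, 0, 1] * D = D * !![δ, 0, 0; 0, 1, 0; 0, 0, 1])
    (h : P * A * P⁻¹ = X0 * D * X0⁻¹ * (Y0 * D * Y0⁻¹)) :
    ∃ X Y : Matrix (Fin 3) (Fin 3) F, X.det = 1 ∧ Y.det = 1 ∧
      A = X * D * X⁻¹ * (Y * D * Y⁻¹) := by
  have hPu : IsUnit P.det := isUnit_iff_ne_zero.mpr hP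
  have hPi : P⁻¹.det ≠ 0 := by
    rw [Matrix.det_nonsing_inv]; simpa using hP
  have h1 : (P⁻¹ * X0).det ≠ 0 := by rw [Matrix.det_mul]; exact mul_ne_zero hPi hX0
  have h2 : (P⁻¹ * Y0).det ≠ 0 := by rw [Matrix.det_mul]; exact mul_ne_zero hPi hY0
  obtain ⟨X, hX, hXe⟩ := sou_conj_adjust (P⁻¹ * X0) D h1 hD
  obtain ⟨Y, hY, hYe⟩ := sou_conj_adjust (P⁻¹ * Y0) D h2 hD
  refine ⟨X, Y, hX, hY, ?_⟩
  rw [hXe, hYe, Matrix.mul_inv_rev, Matrix.mul_inv_rev, Matrix.nonsing_inv_nonsing_inv P hPu]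
  have hA : A = P⁻¹ * (P * A * P⁻¹) * P := by
    calc A = (P⁻¹ * P) * A * (P⁻¹ * P) := by
          rw [Matrix.nonsing_inv_mul P hPu, one_mul, mul_one]
      _ = P⁻¹ * (P * A * P⁻¹) * P := by simp only [mul_assoc]
  calc A = P⁻¹ * (P * A * P⁻¹) * P := hA
    _ = P⁻¹ * (X0 * D * X0⁻¹ * (Y0 * D * Y0⁻¹)) * P := by rw [h]
    _ = P⁻¹ * (X0 * D * X0⁻¹ * (P * P⁻¹) * (Y0 * D * Y0⁻¹)) * P := by
          rw [Matrix.mul_nonsing_inv P hPu, mul_one]
    _ = P⁻¹ * X0 * D * (X0⁻¹ * P) * (P⁻¹ * Y0 * D * (Y0⁻¹ * P)) := by simp only [mul_assoc]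

/-- Case `|F| ≥ 4`: every non-scalar determinant-one `3 × 3` matrix is a product of two
`SL`-conjugates of `diag(1, a, a⁻¹)`. -/
theorem sou3_diag {F : Type*} [Field F] (A : Matrix (Fin 3) (Fin 3) F) (hA : A.det = 1)
    (hns : ∀ c : F, A ≠ c • (1 : Matrix (Fin 3) (Fin 3) F)) (a : F) (ha0 : a ≠ 0)
    (ha1 : a ≠ 1) (ha2 : a * a ≠ 1) :
    ∃ X Y : Matrix (Fin 3) (Fin 3) F, X.det = 1 ∧ Y.det = 1 ∧
      A = X * Matrix.diagonal ![1, a, a⁻¹] * X⁻¹ * (Y * Matrix.diagonal ![1, a, a⁻¹] * Y⁻¹) := by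
  have hdet : (1 : F) * a * a⁻¹ * (1 * a * a⁻¹) = A.det := by
    rw [hA]; field_simp
  obtain ⟨P, l1, l2, l3, u1, u2, u3, hP, hPA⟩ :=
    Helper76.sou3_lu A (by rw [hA]; exact one_ne_zero) hns 1 a a⁻¹ 1 a a⁻¹ hdet
  have h12 : (1 : F) ≠ a := fun h => ha1 h.symm
  have h13 : (1 : F) ≠ a⁻¹ := by
    intro h
    apply ha1
    have := congrArg (fun t => t * a) h
    simp only [one_mul, inv_mul_cancel₀ ha0] at this
    exact this
  have h23 : a ≠ a⁻¹ := by
    intro h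
    apply ha2
    have := congrArg (fun t => t * a) h
    simp only [inv_mul_cancel₀ ha0] at this
    exact this
  obtain ⟨X0, hX0, hXe⟩ := Helper84.sou_lower_diag 1 a a⁻¹ l1 l2 l3 h12 h13 h23
  obtain ⟨Y0, hY0, hYe⟩ := Helper84.sou_upper_diag 1 a a⁻¹ u1 u2 u3 h12 h13 h23
  refine sou_assemble A P X0 Y0 (Matrix.diagonal ![1, a, a⁻¹]) hP (by rw [hX0]; exact one_ne_zero)
    (by rw [hY0]; exact one_ne_zero) ?_ ?_
  · intro δ
    have : (!![δ, 0, 0; 0, 1, 0; 0, 0, 1] : Matrix (Fin 3) (Fin 3) F) =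
        Matrix.diagonal ![δ, 1, 1] := by
      ext i j; fin_cases i <;> fin_cases j <;> simp
    rw [this, Matrix.diagonal_mul_diagonal, Matrix.diagonal_mul_diagonal]
    congr 1
    ext i; fin_cases i <;> simp [mul_comm]
  · rw [hPA, hXe, hYe]

/-- Case `|F| = 3`: every non-scalar determinant-one `3 × 3` matrix is a product of two
`SL`-conjugates of the order-four element `diag(1, [[0, -1], [1, 0]])`. -/
theorem sou3_three {F : Type*} [Field F] [Fintype F] (hF : Fintype.card F = 3)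
    (A : Matrix (Fin 3) (Fin 3) F) (hA : A.det = 1)
    (hns : ∀ c : F, A ≠ c • (1 : Matrix (Fin 3) (Fin 3) F)) :
    ∃ X Y : Matrix (Fin 3) (Fin 3) F, X.det = 1 ∧ Y.det = 1 ∧
      A = X * !![1, 0, 0; 0, 0, -1; 0, 1, 0] * X⁻¹ *
        (Y * !![1, 0, 0; 0, 0, -1; 0, 1, 0] * Y⁻¹) := by
  obtain ⟨P, r1, r2, L, U, hP, hL, hU, hPA⟩ := Helper39.sou3_step_three_of hF (fun B hB κ => Helper76.sou_first_col B hB κ) A hA hns
  obtain ⟨X0, hX0, hXe⟩ := Helper88.sou3_conj_lower hF L hL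
  obtain ⟨Y0, hY0, hYe⟩ := Helper88.sou3_conj_upper hF U hU r1 r2
  refine sou_assemble A P X0 Y0 _ hP hX0 hY0 ?_ ?_
  · intro δ
    ext i j; fin_cases i <;> fin_cases j <;> simp [Matrix.mul_apply, Fin.sum_univ_three]
  · rw [hPA, hXe, hYe]

/-- Passage to `PSL₃`. -/
theorem sou_psl_of_mat {F : Type*} [Field F] (d : Matrix.SpecialLinearGroup (Fin 3) F)
    (h : ∀ A : Matrix (Fin 3) (Fin 3) F, A.det = 1 →
      (∀ c : F, A ≠ c • (1 : Matrix (Fin 3) (Fin 3) F)) →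
      ∃ X Y : Matrix (Fin 3) (Fin 3) F, X.det = 1 ∧ Y.det = 1 ∧
        A = X * d.1 * X⁻¹ * (Y * d.1 * Y⁻¹))
    (g : Matrix.ProjectiveSpecialLinearGroup (Fin 3) F) (hg : g ≠ 1) :
    ∃ u v : Matrix.ProjectiveSpecialLinearGroup (Fin 3) F,
      g = (u * QuotientGroup.mk d * u⁻¹) * (v * QuotientGroup.mk d * v⁻¹) := by
  obtain ⟨A, rfl⟩ := QuotientGroup.mk_surjective g
  have hAc : A ∉ Subgroup.center (Matrix.SpecialLinearGroup (Fin 3) F) := by
    intro hc
    exact hg ((QuotientGroup.eq_one_iff A).mpr hc)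
  have hns : ∀ c : F, A.1 ≠ c • (1 : Matrix (Fin 3) (Fin 3) F) := by
    intro c hc
    apply hAc
    rw [Matrix.SpecialLinearGroup.mem_center_iff]
    refine ⟨c, ?_, ?_⟩
    · have hd := A.2
      rw [hc, Matrix.det_smul, Matrix.det_one, mul_one] at hd
      simpa using hd
    · rw [hc]
      ext i j
      simp [Matrix.smul_apply, Matrix.one_apply, Matrix.diagonal_apply]
  obtain ⟨X, Y, hX, hY, hAe⟩ := h A.1 A.2 hns
  have hXi : X⁻¹ = X.adjugate := by rw [Matrix.inv_def, hX, Ring.inverse_one, one_smul]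
  have hYi : Y⁻¹ = Y.adjugate := by rw [Matrix.inv_def, hY, Ring.inverse_one, one_smul]
  obtain ⟨U, hU⟩ : ∃ U : Matrix.SpecialLinearGroup (Fin 3) F, U = ⟨X, hX⟩ := ⟨_, rfl⟩
  obtain ⟨V, hV⟩ : ∃ V : Matrix.SpecialLinearGroup (Fin 3) F, V = ⟨Y, hY⟩ := ⟨_, rfl⟩
  have hAe' : A = U * d * U⁻¹ * (V * d * V⁻¹) := by
    apply Subtype.ext
    rw [Matrix.SpecialLinearGroup.coe_mul, Matrix.SpecialLinearGroup.coe_mul,
      Matrix.SpecialLinearGroup.coe_mul, Matrix.SpecialLinearGroup.coe_mul,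
      Matrix.SpecialLinearGroup.coe_mul, Matrix.SpecialLinearGroup.coe_inv,
      Matrix.SpecialLinearGroup.coe_inv, hU, hV]
    show A.1 = X * d.1 * X.adjugate * (Y * d.1 * Y.adjugate)
    rw [← hXi, ← hYi]
    exact hAe
  refine ⟨QuotientGroup.mk U, QuotientGroup.mk V, ?_⟩
  rw [hAe']
  rfl

end Cfsg.Agent.Helper35

namespace Cfsg.Agent.Helper35

/-- The main theorem: a semisimple class of `PSL₃(q)`, `q ≥ 3`, whose square covers all
non-identity elements. -/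
theorem sou_psl_main {F : Type*} [Field F] [Fintype F] (p : ℕ) [Fact p.Prime] [CharP F p]
    (h3 : 3 ≤ Fintype.card F) :
    ∃ x : Matrix.ProjectiveSpecialLinearGroup (Fin 3) F, ¬ p ∣ orderOf x ∧
      ∀ g : Matrix.ProjectiveSpecialLinearGroup (Fin 3) F, g ≠ 1 →
        ∃ u v : Matrix.ProjectiveSpecialLinearGroup (Fin 3) F,
          g = (u * x * u⁻¹) * (v * x * v⁻¹) := by
  classical
  obtain ⟨n, hp, hq⟩ := FiniteField.card F p
  have hpq : p ∣ Fintype.card F := by rw [hq]; exact dvd_pow_self p n.ne_zero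
  rcases Nat.lt_or_ge 3 (Fintype.card F) with h4 | h3'
  · -- q ≥ 4
    have hex : ∃ a : F, a ≠ 0 ∧ a ≠ 1 ∧ a ≠ -1 := by
      by_contra hcon
      push Not at hcon
      have hsub : (Finset.univ : Finset F) ⊆ {0, 1, -1} := by
        intro a _
        simp only [Finset.mem_insert, Finset.mem_singleton]
        by_cases h0 : a = 0
        · exact Or.inl h0
        · by_cases h1 : a = 1
          · exact Or.inr (Or.inl h1)
          · exact Or.inr (Or.inr (hcon a h0 h1))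
      have hle := Finset.card_le_card hsub
      have h3c : ({0, 1, -1} : Finset F).card ≤ 3 := Finset.card_le_three
      rw [Finset.card_univ] at hle
      omega
    obtain ⟨a, ha0, ha1, ham⟩ := hex
    have ha2 : a * a ≠ 1 := by
      intro h
      have hz : (a - 1) * (a + 1) = 0 := by
        have : (a - 1) * (a + 1) = a * a - 1 := by ring
        rw [this, h, sub_self]
      rcases mul_eq_zero.mp hz with h' | h'
      · exact ha1 (sub_eq_zero.mp h')
      · exact ham (eq_neg_of_add_eq_zero_left h')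
    have hdet : (Matrix.diagonal ![1, a, a⁻¹] : Matrix (Fin 3) (Fin 3) F).det = 1 := by
      rw [Matrix.det_diagonal, Fin.prod_univ_three]; simp [ha0]
    obtain ⟨d, hd⟩ : ∃ d : Matrix.SpecialLinearGroup (Fin 3) F,
        d.1 = Matrix.diagonal ![1, a, a⁻¹] := ⟨⟨_, hdet⟩, rfl⟩
    refine ⟨QuotientGroup.mk d, ?_, ?_⟩
    · intro hdvd
      have hsl : d ^ (Fintype.card F - 1) = 1 := by
        apply Subtype.ext
        rw [Matrix.SpecialLinearGroup.coe_pow, Matrix.SpecialLinearGroup.coe_one]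
        show d.1 ^ (Fintype.card F - 1) = 1
        rw [hd, Matrix.diagonal_pow, ← Matrix.diagonal_one]
        congr 1
        ext i
        fin_cases i
        · simp
        · simp [FiniteField.pow_card_sub_one_eq_one a ha0]
        · simp [FiniteField.pow_card_sub_one_eq_one a ha0]
      have hpow : (QuotientGroup.mk d : Matrix.ProjectiveSpecialLinearGroup (Fin 3) F) ^
          (Fintype.card F - 1) = 1 := by
        rw [← QuotientGroup.mk_pow, hsl]; rfl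
      have hd1 := orderOf_dvd_of_pow_eq_one hpow
      have hd2 : p ∣ Fintype.card F - 1 := hdvd.trans hd1
      have hd3 : p ∣ 1 := by
        have h2 := Nat.dvd_sub hpq hd2
        have : Fintype.card F - (Fintype.card F - 1) = 1 := by omega
        rwa [this] at h2
      exact hp.one_lt.ne' (Nat.dvd_one.mp hd3)
    · intro g hg
      refine sou_psl_of_mat d (fun A hA hns => ?_) g hg
      rw [hd]
      exact sou3_diag A hA hns a ha0 ha1 ha2
  · -- q = 3
    have hF : Fintype.card F = 3 := le_antisymm h3' h3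
    have hp3 : p = 3 := by
      rw [hF] at hpq
      exact (Nat.prime_dvd_prime_iff_eq hp Nat.prime_three).mp hpq
    have hdet : (!![1, 0, 0; 0, 0, -1; 0, 1, 0] : Matrix (Fin 3) (Fin 3) F).det = 1 := by
      rw [Matrix.det_fin_three]; simp
    obtain ⟨d, hd⟩ : ∃ d : Matrix.SpecialLinearGroup (Fin 3) F,
        d.1 = !![1, 0, 0; 0, 0, -1; 0, 1, 0] := ⟨⟨_, hdet⟩, rfl⟩
    refine ⟨QuotientGroup.mk d, ?_, ?_⟩
    · intro hdvd
      have hsl : d ^ 4 = 1 := by
        apply Subtype.ext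
        rw [Matrix.SpecialLinearGroup.coe_pow, Matrix.SpecialLinearGroup.coe_one]
        show d.1 ^ 4 = 1
        rw [hd]
        have hsq : (!![1, 0, 0; 0, 0, -1; 0, 1, 0] : Matrix (Fin 3) (Fin 3) F) *
            !![1, 0, 0; 0, 0, -1; 0, 1, 0] = !![1, 0, 0; 0, -1, 0; 0, 0, -1] := by
          ext i j; fin_cases i <;> fin_cases j <;> simp [Matrix.mul_apply, Fin.sum_univ_three]
        have hsq2 : (!![1, 0, 0; 0, -1, 0; 0, 0, -1] : Matrix (Fin 3) (Fin 3) F) *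
            !![1, 0, 0; 0, -1, 0; 0, 0, -1] = 1 := by
          ext i j; fin_cases i <;> fin_cases j <;> simp [Matrix.mul_apply, Fin.sum_univ_three]
        have h4 : (4 : ℕ) = 2 * 2 := rfl
        rw [h4, pow_mul, pow_two, pow_two, hsq, hsq2]
      have hpow : (QuotientGroup.mk d : Matrix.ProjectiveSpecialLinearGroup (Fin 3) F) ^
          4 = 1 := by
        rw [← QuotientGroup.mk_pow, hsl]; rfl
      have hd1 := orderOf_dvd_of_pow_eq_one hpow
      have hd2 : p ∣ 4 := hdvd.trans hd1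
      rw [hp3] at hd2
      omega
    · intro g hg
      refine sou_psl_of_mat d (fun A hA hns => ?_) g hg
      rw [hd]
      exact sou3_three hF A hA hns

end Cfsg.Agent.Helper35
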