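import Mathlib
import Cfsg.Prelude.Def_KGroupFacts
import Cfsg.Agent.Helper66.Dihedral

set_option autoImplicit false

namespace Cfsg.Agent.Helper35

open scoped commutatorElement

/-- Transfer: a central element of `Γ` lying in the commutator subgroup has its `H.index`-th power
in the commutator subgroup of `H`, for every subgroup `H` of finite index. -/
theorem stem_pow_index_mem_commutator {Γ : Type*} [Group Γ] (H : Subgroup Γ) [H.FiniteIndex]
    (z : Γ) (hz : z ∈ Subgroup.center Γ) (hz' : z ∈ commutator Γ) :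
    ∃ h : z ^ H.index ∈ H, (⟨z ^ H.index, h⟩ : H) ∈ commutator H := by
  have key : ∀ (k : ℕ) (g₀ : Γ), g₀⁻¹ * z ^ k * g₀ ∈ H → g₀⁻¹ * z ^ k * g₀ = z ^ k := by
    intro k g₀ _
    have hzk : z ^ k ∈ Subgroup.center Γ := pow_mem hz k
    have := Subgroup.mem_center_iff.mp hzk g₀
    rw [mul_assoc, ← this, inv_mul_cancel_left]
  have h1 := MonoidHom.transfer_eq_pow (Abelianization.of : H →* Abelianization H) z key
  have h2 : MonoidHom.transfer (Abelianization.of : H →* Abelianization H) z = 1 := by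
    have := Abelianization.commutator_subset_ker
      (MonoidHom.transfer (Abelianization.of : H →* Abelianization H)) hz'
    exact MonoidHom.mem_ker.mp this
  refine ⟨MonoidHom.transfer_eq_pow_aux z key, ?_⟩
  rw [← Abelianization.ker_of, MonoidHom.mem_ker, ← h1, h2]

/-- Transfer into an abelian subgroup: a central element of `Γ` lying in the commutator subgroup
has order dividing the index of every abelian subgroup of finite index. -/
theorem stem_pow_index_eq_one_of_comm {Γ : Type*} [Group Γ] (H : Subgroup Γ) [H.FiniteIndex]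
    (hH : ∀ a ∈ H, ∀ b ∈ H, a * b = b * a)
    (z : Γ) (hz : z ∈ Subgroup.center Γ) (hz' : z ∈ commutator Γ) : z ^ H.index = 1 := by
  obtain ⟨h, hmem⟩ := stem_pow_index_mem_commutator H z hz hz'
  have hbot : commutator H = ⊥ := by
    rw [eq_bot_iff, _root_.commutator_def, Subgroup.commutator_le]
    intro a _ b _
    rw [Subgroup.mem_bot, commutatorElement_eq_one_iff_mul_comm]
    exact Subtype.ext (hH a a.2 b b.2)
  rw [hbot, Subgroup.mem_bot] at hmem
  exact congrArg Subtype.val hmem

/-- The restriction of a stem extension to a Sylow subgroup is a stem extension of the image. -/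
theorem stem_subgroupMap_sylow {Γ : Type*} {G : Type*} [Group Γ] [Finite Γ] [Group G]
    (σ : Γ →* G) (hσ : Cfsg.IsStemExtension σ) (ℓ : ℕ) [Fact ℓ.Prime] (L : Sylow ℓ Γ) :
    Cfsg.IsStemExtension (σ.subgroupMap (L : Subgroup Γ)) := by
  obtain ⟨hsurj, hcen, hder⟩ := hσ
  have hker : ∀ w : (L : Subgroup Γ), w ∈ (σ.subgroupMap (L : Subgroup Γ)).ker → (w : Γ) ∈ σ.ker := by
    intro w hw
    rw [MonoidHom.mem_ker] at hw ⊢
    have := congrArg Subtype.val hw
    simpa using this
  refine ⟨MonoidHom.subgroupMap_surjective σ _, ?_, ?_⟩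
  · intro w hw
    have hwc := hcen (hker w hw)
    rw [Subgroup.mem_center_iff] at hwc ⊢
    intro g
    exact Subtype.ext (hwc g)
  · intro w hw
    have hwk := hker w hw
    obtain ⟨h, hmem⟩ := stem_pow_index_mem_commutator (L : Subgroup Γ) (w : Γ) (hcen hwk) (hder hwk)
    have hcop : Nat.Coprime (L : Subgroup Γ).index (orderOf w) := by
      obtain ⟨k, hk⟩ := (IsPGroup.iff_orderOf.mp L.isPGroup') w
      rw [hk]
      apply Nat.Coprime.pow_right
      rw [Nat.coprime_comm]
      exact (Nat.Prime.coprime_iff_not_dvd Fact.out).mpr L.not_dvd_index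
    obtain ⟨m, hm⟩ := exists_pow_eq_self_of_coprime hcop
    have hw' : (⟨(w : Γ) ^ (L : Subgroup Γ).index, h⟩ : (L : Subgroup Γ)) = w ^ (L : Subgroup Γ).index :=
      Subtype.ext (by simp)
    rw [hw'] at hmem
    rw [← hm]
    exact pow_mem hmem m

/-- A stem extension of a cyclic group is trivial. -/
theorem stem_ker_eq_bot_of_isCyclic {Γ : Type*} {G : Type*} [Group Γ] [Group G] [IsCyclic G]
    (σ : Γ →* G) (hσ : Cfsg.IsStemExtension σ) : σ.ker = ⊥ := by
  obtain ⟨hsurj, hcen, hder⟩ := hσ
  have hcomm : ∀ a b : Γ, a * b = b * a := by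
    have h := MonoidHom.isMulCommutative_of_isCyclic_of_ker_le_center σ hcen
    exact fun a b => h.is_comm.comm a b
  have hbot : commutator Γ = ⊥ := by
    rw [eq_bot_iff, _root_.commutator_def, Subgroup.commutator_le]
    intro a _ b _
    rw [Subgroup.mem_bot, commutatorElement_eq_one_iff_mul_comm]
    exact hcomm a b
  rw [eq_bot_iff, ← hbot]
  exact hder

/-- A stem extension of a dicyclic (generalized quaternion) group is trivial. -/
theorem stem_ker_eq_bot_of_quaternion {Γ : Type*} {G : Type*} [Group Γ] [Group G]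
    (σ : Γ →* G) (hσ : Cfsg.IsStemExtension σ) (n : ℕ) [NeZero n]
    (e : G ≃* QuaternionGroup n) : σ.ker = ⊥ := by
  obtain ⟨hsurj, hcen, hder⟩ := hσ
  have hk : (e.toMonoidHom.comp σ).ker = σ.ker := by
    ext x
    simp [MonoidHom.mem_ker]
  have hσ' : Cfsg.IsStemExtension (e.toMonoidHom.comp σ) := by
    refine ⟨?_, ?_, ?_⟩
    · exact e.surjective.comp hsurj
    · rw [hk]; exact hcen
    · rw [hk]; exact hder
  rw [← hk]
  open QuaternionGroup in
  refine Cfsg.Agent.Helper66.stem_dihedral_like_ker_eq_bot (e.toMonoidHom.comp σ) hσ' (a 1) (xa 0)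
    ?_ ?_ n ?_ ?_
  · rw [eq_top_iff]
    rintro (i | i) -
    · have : a i = (a 1 : QuaternionGroup n) ^ i.val := by
        rw [a_one_pow, ZMod.natCast_zmod_val]
      rw [this]
      exact pow_mem (Subgroup.subset_closure (by simp)) _
    · have : xa i = xa 0 * (a 1 : QuaternionGroup n) ^ i.val := by
        rw [a_one_pow, ZMod.natCast_zmod_val, xa_mul_a, zero_add]
      rw [this]
      exact mul_mem (Subgroup.subset_closure (by simp))
        (pow_mem (Subgroup.subset_closure (by simp)) _)
  · simp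
  · right
    rw [a_one_pow, xa_sq]
  · rw [orderOf_pow' _ two_ne_zero, orderOf_a_one, Nat.gcd_eq_right (dvd_mul_right 2 n),
      Nat.mul_div_cancel_left n (by norm_num : 0 < 2)]

/-- If the kernel of a finite stem extension is nontrivial it contains an element of prime order. -/
theorem stem_exists_prime_order {Γ : Type*} {G : Type*} [Group Γ] [Finite Γ] [Group G]
    (σ : Γ →* G) (h : σ.ker ≠ ⊥) : ∃ (ℓ : ℕ) (z : Γ), ℓ.Prime ∧ z ∈ σ.ker ∧ orderOf z = ℓ := by
  have hcard : Nat.card σ.ker ≠ 1 := by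
    intro h1
    exact h ((Subgroup.card_eq_one).mp h1)
  obtain ⟨ℓ, hℓ, hdvd⟩ := Nat.exists_prime_and_dvd hcard
  have : Fact ℓ.Prime := ⟨hℓ⟩
  obtain ⟨w, hw⟩ := exists_prime_orderOf_dvd_card' ℓ hdvd
  refine ⟨ℓ, (w : Γ), hℓ, w.2, ?_⟩
  rw [Subgroup.orderOf_coe, hw]

end Cfsg.Agent.Helper35
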